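import Cfsg.Agent.H75.MinDeg.Line

/-!
# Transporting commutator relations
-/

set_option autoImplicit false

namespace Cfsg.Agent.H75.MinDeg

namespace Sys

variable {G H : Type*} [Group G] [Group H] {K : Type*} [Field K]

variable {S : Sys G K} {S' : Sys H K} {ι : G →* H}

/-- Relations pull back along an injective homomorphism matching the families. -/
theorem Sw.of_map (hι : Function.Injective ι) (hP : S.P = S'.P)
    (hel : ∀ r, ∀ t ∈ S.P r, ι (S.el r t) = S'.el r t) {a b : ℕ} {T : List ℕ} (h : S'.Sw a b T) : S.Sw a b T := by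
  intro t ht u hu
  obtain ⟨x, hx, e⟩ := h t (hP ▸ ht) u (hP ▸ hu)
  have hle : S'.Hs T ≤ (S.Hs T).map ι := (Subgroup.closure_le _).2 fun g ⟨r, hr, s, hs, hg⟩ =>
    ⟨S.el r s, S.el_mem_Hs hr (hP ▸ hs), by rw [hel r s (hP ▸ hs), hg]⟩
  obtain ⟨y, hy, rfl⟩ := hle hx
  refine ⟨y, hy, hι ?_⟩
  rw [map_mul, map_mul, map_mul, hel b u hu, hel a t ht]
  exact e

theorem Exact.of_map (hι : Function.Injective ι) (hP : S.P = S'.P)
    (hel : ∀ r, ∀ t ∈ S.P r, ι (S.el r t) = S'.el r t) {a b k : ℕ} (h : S'.Exact a b k) : S.Exact a b k := by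
  obtain ⟨φ, h1, h2, h3, h4, h5, h6⟩ := h
  rw [← hP] at h1 h4 h5 h6
  refine ⟨φ, h1, h2, h3, h4, h5, fun t ht u hu => hι ?_⟩
  rw [map_mul, map_mul, map_mul, hel b u hu, hel a t ht, hel k _ (h1 t ht u hu)]
  exact h6 t ht u hu

variable (S)

/-- `r'` renames the family `r`. -/
def Flip (r r' : ℕ) (g : K → K) : Prop :=
  (∀ t u, g (t + u) = g t + g u) ∧ (∀ t, g t = 0 → t = 0) ∧ (∀ t ∈ S.P r, g t ∈ S.P r') ∧
    (∀ y ∈ S.P r', ∃ t ∈ S.P r, g t = y) ∧ ∀ t ∈ S.P r, S.el r t = S.el r' (g t)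

variable {S}

theorem Flip.refl (r : ℕ) : S.Flip r r id :=
  ⟨fun _ _ => rfl, fun _ h => h, fun _ h => h, fun y hy => ⟨y, hy, rfl⟩, fun _ _ => rfl⟩

/-- Renaming the second family and the target. -/
theorem Exact.flip {a b b' k k' : ℕ} {g g' : K → K} (hb : S.Flip b b' g) (hk : S.Flip k k' g')
    (h : S.Exact a b' k) : S.Exact a b k' := by
  obtain ⟨φ, h1, h2, h3, h4, h5, h6⟩ := h
  obtain ⟨ga, g0, gP, gS, gE⟩ := hb
  obtain ⟨ka, -, kP, kS, kE⟩ := hk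
  refine ⟨fun t u => g' (φ t (g u)), fun t ht u hu => kP _ (h1 t ht _ (gP u hu)), fun t t' u => ?_,
    fun t u u' => ?_, fun t ht h0 y hy => ?_, fun u hu h0 y hy => ?_, fun t ht u hu => ?_⟩
  · simp only [h2, ka]
  · simp only [ga, h3, ka]
  · obtain ⟨z, hz, rfl⟩ := kS y hy
    obtain ⟨v, hv, rfl⟩ := h4 t ht h0 z hz
    obtain ⟨u, hu, rfl⟩ := gS v hv
    exact ⟨u, hu, rfl⟩
  · obtain ⟨z, hz, rfl⟩ := kS y hy
    obtain ⟨t, ht, rfl⟩ := h5 _ (gP u hu) (fun e => h0 (g0 u e)) z hz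
    exact ⟨t, ht, rfl⟩
  · rw [gE u hu, h6 t ht _ (gP u hu), kE _ (h1 t ht _ (gP u hu))]

theorem Exact.sw {a b k : ℕ} (h : S.Exact a b k) : S.Sw a b [k] := by
  obtain ⟨φ, h1, -, -, -, -, h6⟩ := h
  exact fun t ht u hu => ⟨_, S.el_mem_Hs (List.mem_cons_self) (h1 t ht u hu), h6 t ht u hu⟩

end Sys

end Cfsg.Agent.H75.MinDeg
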