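import Cfsg.Agent.H75.MinDeg.Term
import Cfsg.Agent.H75.MinDeg.Transport

/-!
# Checking certificates against a table of targets
-/

set_option autoImplicit false

namespace Cfsg.Agent.H75.MinDeg

/-- A table of commutator targets. -/
structure Tab where
  /-- the targets -/
  sw : ℕ → ℕ → Option (List ℕ)
  /-- single bijective targets -/
  exact : ℕ → ℕ → Option ℕ

namespace Tab

variable (Tb : Tab)

/-- The commutator of two families is trivial. -/
def nilB (a b : ℕ) : Bool :=
  match Tb.sw a b with
  | some [] => true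
  | _ => false

/-- The targets lie in a list. -/
def inB (a b : ℕ) (T : List ℕ) : Bool :=
  match Tb.sw a b with
  | some T' => T'.all fun x => T.contains x
  | none => false

/-- The single target is as given. -/
def exB (a b k : ℕ) : Bool :=
  match Tb.exact a b with
  | some k' => Nat.beq k' k
  | none => false

/-- The check of translations. -/
def shiftB (α : ℕ) : List (ℕ × ℕ) → List ℕ → Bool
  | [], _ => true
  | p :: M, T => Tb.exB p.2 p.1 α && Tb.nilB p.2 α && (T.all fun s => Tb.inB p.2 s T) && shiftB α M (p.1 :: T)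

/-- The check of a Lagrangian. -/
def lagB (α : ℕ) : List (ℕ × ℕ) → Bool
  | [] => true
  | p :: L => Tb.exB p.2 p.1 α && Tb.nilB p.2 α && Tb.nilB p.1 α &&
      (L.all fun q => Tb.nilB p.2 q.1 && Tb.nilB p.1 q.1) && lagB α L

/-- The check that a family preserves the line. -/
def lineB (α : ℕ) (L : List (ℕ × ℕ)) (T : List ℕ) (n : ℕ) : Bool :=
  (α :: L.map Prod.fst).all fun x => Tb.inB n x T

/-- The check of a derivation. -/
def stepsB (α : ℕ) (L : List (ℕ × ℕ)) : List (ℕ × ℕ × ℕ) → List ℕ → Bool
  | [], _ => true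
  | s :: r, T => Tb.lineB α L T s.2.1 && Tb.lineB α L T s.2.2 && Tb.exB s.2.1 s.2.2 s.1 && stepsB α L r (s.1 :: T)

/-- Containment. -/
def subB (A B : List ℕ) : Bool := A.all fun x => B.contains x

variable {G : Type*} [Group G] {K : Type*} [Field K] {S : Sys G K}
  (hsw : ∀ a b T, Tb.sw a b = some T → S.Sw a b T) (hex : ∀ a b k, Tb.exact a b = some k → S.Exact a b k)

include hsw

theorem nilB_spec {a b : ℕ} (h : Tb.nilB a b = true) : S.Sw a b [] := by
  simp only [nilB] at h
  split at h
  · next e => exact hsw a b [] e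
  · exact absurd h (by simp)

theorem inB_spec {a b : ℕ} {T : List ℕ} (h : Tb.inB a b T = true) : ∃ T' ⊆ T, S.Sw a b T' := by
  simp only [inB] at h
  split at h
  · next T' e =>
    simp only [List.all_eq_true, List.contains_iff_mem] at h
    exact ⟨T', h, hsw a b T' e⟩
  · exact absurd h (by simp)

omit hsw in
include hex in
theorem exB_spec {a b k : ℕ} (h : Tb.exB a b k = true) : S.Exact a b k := by
  simp only [exB] at h
  split at h
  · next k' e => exact Nat.eq_of_beq_eq_true h ▸ hex a b k' e
  · exact absurd h (by simp)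

include hex

theorem shiftB_spec : ∀ (M : List (ℕ × ℕ)) (T : List ℕ), Tb.shiftB S.α M T = true → S.GoodShift M T := by
  intro M
  induction M with
  | nil => exact fun _ _ => trivial
  | cons p M ih =>
    intro T h
    simp only [shiftB, Bool.and_eq_true, List.all_eq_true] at h
    exact ⟨Tb.exB_spec hex h.1.1.1, Tb.nilB_spec hsw h.1.1.2, fun s hs => Tb.inB_spec hsw (h.1.2 s hs),
      ih _ h.2⟩

theorem lagB_spec : ∀ L : List (ℕ × ℕ), Tb.lagB S.α L = true → S.GoodLag L := by
  intro L
  induction L with
  | nil => exact fun _ => trivial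
  | cons p L ih =>
    intro h
    simp only [lagB, Bool.and_eq_true, List.all_eq_true] at h
    exact ⟨Tb.exB_spec hex h.1.1.1.1, Tb.nilB_spec hsw h.1.1.1.2, Tb.nilB_spec hsw h.1.1.2,
      fun q hq => ⟨Tb.nilB_spec hsw (h.1.2 q hq).1, Tb.nilB_spec hsw (h.1.2 q hq).2⟩, ih h.2⟩

theorem stepsB_spec (L : List (ℕ × ℕ)) : ∀ (st : List (ℕ × ℕ × ℕ)) (T : List ℕ),
    Tb.stepsB S.α L st T = true → S.GoodSteps L st T := by
  intro st
  induction st with
  | nil => exact fun _ _ => trivial
  | cons s r ih =>
    intro T h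
    simp only [stepsB, lineB, Bool.and_eq_true, List.all_eq_true] at h
    exact ⟨fun x hx => Tb.inB_spec hsw (h.1.1.1 x hx), fun x hx => Tb.inB_spec hsw (h.1.1.2 x hx),
      Tb.exB_spec hex h.1.2, ih _ h.2⟩

omit hsw hex in
theorem subB_spec {A B : List ℕ} (h : subB A B = true) : A ⊆ B := by
  simp only [subB, List.all_eq_true, List.contains_iff_mem] at h
  exact h

end Tab

end Cfsg.Agent.H75.MinDeg
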