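import Cfsg.Agent.H75.MinDeg.Transport
import Cfsg.Agent.H46.TwistGraph
import Cfsg.Agent.H65.Chev.G2

/-!
# Relations between classes of roots under a graph involution

The class element of a root `r` is `x_r(t)` for a fixed root and `x_r(t) x_{π r}(ε_r f(t))` otherwise. A computable
table gives the targets of the commutator of two classes; it is proved correct here.
-/

set_option autoImplicit false

namespace Cfsg.Agent.H75.MinDeg

open Cfsg.Lie Cfsg.Agent.H46
open scoped Matrix MatrixGroups

variable {D : ChevalleyDatum} (G : Good D) {F : Type*} [Field F] (π : ℕ → ℕ) (ε : ℕ → ℤ) (f : F →+* F)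

/-- The class element. -/
noncomputable def ey (r : ℕ) (t : F) : GL D.Idx F :=
  if π r = r then G.xg r t else G.xg r t * G.xg (π r) ((ε r : F) * f t)

/-- The parameters of a class element. -/
def eyP (r : ℕ) : AddSubgroup F where
  carrier := {t | π r = r → f t = t}
  zero_mem' := fun _ => map_zero f
  add_mem' := fun {a b} ha hb h => by rw [map_add, ha h, hb h]
  neg_mem' := fun {a} ha h => by rw [map_neg, ha h]

theorem mem_eyP {r : ℕ} {t : F} : t ∈ eyP π f r ↔ (π r = r → f t = t) := Iff.rfl

section Tables

variable (D)

/-- The root elements commute. -/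
def nil0 (r s : ℕ) : Bool :=
  Nat.blt r D.nroots && Nat.blt s D.nroots && !Nat.beq s (D.neg r) && (D.commTerms r s).isEmpty

/-- A single target with its coefficient. -/
def one? (r s : ℕ) : Option (ℕ × ℤ) :=
  if Nat.blt r D.nroots && Nat.blt s D.nroots && !Nat.beq s r && !Nat.beq s (D.neg r) then
    match D.commTerms r s with
    | [(k, M, 1, 1)] => if decide (M = 1) || decide (M = -1) then some (k, M) else none
    | _ => none
  else none

/-- The members of a class. -/
def mems (r : ℕ) : List ℕ := if π r = r then [r] else [r, π r]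

/-- The representative of a class. -/
def cls (r : ℕ) : ℕ := min r (π r)

/-- Two classes commute. -/
def zero? (a b : ℕ) : Bool := (mems π a).all fun r => (mems π b).all fun s => nil0 D r s

/-- Two fixed roots with a fixed target. -/
def ll? (a b : ℕ) : Option ℕ :=
  if π a = a ∧ π b = b then
    match one? D a b with
    | some (k, _) => if Nat.blt k D.nroots ∧ π k = k then some k else none
    | none => none
  else none

/-- Two moved classes with a single target class. -/
def ss? (a b : ℕ) : Option ℕ :=
  if π a ≠ a ∧ π b ≠ b then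
    match one? D a b, one? D (π a) (π b) with
    | some (k, M), some (k', M') =>
      if nil0 D a (π b) ∧ nil0 D (π a) b ∧ nil0 D (π a) k ∧ nil0 D (π b) k ∧ Nat.blt k D.nroots ∧
          ((π k = k ∧ k' = k ∧ M' * ε a * ε b = M) ∨ (π k ≠ k ∧ k' = π k ∧ M' * ε a * ε b = ε k * M)) then
        some k
      else none
    | _, _ => none
  else none

/-- A fixed root and a moved class, with the two targets. -/
def ls? (a b : ℕ) : Option (ℕ × ℕ) :=
  if π a = a ∧ π b ≠ b then
    match one? D a b, one? D a (π b) with
    | some (k, M), some (k', M') =>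
      match one? D (π b) k with
      | some (l, _) =>
        if π k ≠ k ∧ k' = π k ∧ π l = l ∧ nil0 D l k' ∧ M' * ε b = ε k * M then some (k, l) else none
      | none => none
    | _, _ => none
  else none

/-- A moved class and a fixed root, with the two targets. -/
def sl? (a b : ℕ) : Option (ℕ × ℕ) :=
  if π a ≠ a ∧ π b = b then
    match one? D a b, one? D (π a) b with
    | some (k, M), some (k', M') =>
      match one? D (π a) k with
      | some (l, _) =>
        if π k ≠ k ∧ k' = π k ∧ π l = l ∧ nil0 D k k' ∧ M' * ε a = ε k * M then some (k, l) else none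
      | none => none
    | _, _ => none
  else none

/-- The target of a pair with a single target class. -/
def exact? (a b : ℕ) : Option ℕ :=
  if Nat.blt a D.nroots && Nat.blt b D.nroots then
    match ll? D π a b with
    | some k => some k
    | none =>
      match ss? D π ε a b with
      | some k => some (cls π k)
      | none =>
        match ss? D π ε a (π b) with
        | some k => some (cls π k)
        | none => none
  else none

/-- The targets of the commutator of two classes. -/
def sw? (a b : ℕ) : Option (List ℕ) :=
  if Nat.blt a D.nroots && Nat.blt b D.nroots then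
    if zero? D π a b then some []
    else match exact? D π ε a b with
      | some k => some [k]
      | none =>
        match ls? D π ε a b with
        | some (k, l) => some [cls π k, l]
        | none =>
          match sl? D π ε a b with
          | some (k, l) => some [cls π k, l]
          | none => none
  else none

/-- The hypotheses on the involution. -/
def chkSym : Bool :=
  (List.range D.nroots).all fun r =>
    Nat.blt (π r) D.nroots && Nat.beq (π (π r)) r && decide (ε r * ε (π r) = 1) &&
      (Nat.beq (π r) r || (nil0 D r (π r) && nil0 D (π r) r))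

end Tables

variable (hsym : chkSym D π ε = true) (hf : ∀ x, f (f x) = x)

include hsym

omit [Field F] in
theorem sym_spec {r : ℕ} (hr : r < D.nroots) : π r < D.nroots ∧ π (π r) = r ∧ ε r * ε (π r) = 1 ∧
    (π r ≠ r → nil0 D r (π r) = true ∧ nil0 D (π r) r = true) := by
  have h := hsym
  simp only [chkSym, List.all_eq_true, List.mem_range, Bool.and_eq_true, Bool.or_eq_true, Nat.blt_eq,
    Nat.beq_eq, decide_eq_true_eq] at h
  obtain ⟨⟨⟨h1, h2⟩, h3⟩, h4⟩ := h r hr
  exact ⟨h1, h2, h3, fun hne => h4.resolve_left hne⟩

omit hsym

omit [Field F] in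
theorem nil0_spec {r s : ℕ} (h : nil0 D r s = true) :
    r < D.nroots ∧ s < D.nroots ∧ s ≠ D.neg r ∧ D.commTerms r s = [] := by
  simp only [nil0, Bool.and_eq_true, Nat.blt_eq, Bool.not_eq_true', List.isEmpty_iff] at h
  exact ⟨h.1.1.1, h.1.1.2, fun e => by simp [e] at h, h.2⟩

theorem commute_nil0 {r s : ℕ} (h : nil0 D r s = true) (t u : F) : Commute (G.xg r t) (G.xg s u) := by
  obtain ⟨h1, h2, h3, h4⟩ := nil0_spec h
  exact G.xg_commute h1 h2 h3 h4 t u

omit [Field F] in
theorem one_spec {r s k : ℕ} {M : ℤ} (h : one? D r s = some (k, M)) :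
    r < D.nroots ∧ s < D.nroots ∧ s ≠ r ∧ s ≠ D.neg r ∧ (M = 1 ∨ M = -1) ∧
      D.commTerms r s = [(k, M, 1, 1)] := by
  simp only [one?] at h
  split at h
  · next hc =>
    simp only [Bool.and_eq_true, Nat.blt_eq, Bool.not_eq_true'] at hc
    split at h
    · next k' M' hL =>
      split at h
      · next hM =>
        simp only [Option.some.injEq, Prod.mk.injEq] at h
        obtain ⟨rfl, rfl⟩ := h
        simp only [Bool.or_eq_true, decide_eq_true_eq] at hM
        exact ⟨hc.1.1.1, hc.1.1.2, fun e => by simp [e] at hc, fun e => by simp [e] at hc, hM, hL⟩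
      · exact absurd h (by simp)
    · exact absurd h (by simp)
  · exact absurd h (by simp)

theorem swap_one {r s k : ℕ} {M : ℤ} (h : one? D r s = some (k, M)) (t u : F) :
    G.xg s u * G.xg r t = G.xg r t * G.xg s u * G.xg k (-((M : F) * (t * u))) := by
  obtain ⟨h1, h2, h3, h4, -, hL⟩ := one_spec h
  rw [H65.xg_mul_xg G h1 h2 h3 h4 hL]
  simp [mul_assoc]

omit [Field F] in
theorem one_lt (G : Good D) {r s k : ℕ} {M : ℤ} (h : one? D r s = some (k, M)) : k < D.nroots := by
  obtain ⟨h1, h2, -, -, -, hL⟩ := one_spec h
  exact (G.commTerms_spec h1 h2 (c := (k, M, 1, 1)) (by rw [hL]; exact List.mem_cons_self)).1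

omit [Field F] in
theorem one_cast_ne {r s k : ℕ} {M : ℤ} (h : one? D r s = some (k, M)) (F : Type*) [Field F] : (M : F) ≠ 0 := by
  rcases (one_spec h).2.2.2.2.1 with rfl | rfl <;> simp

omit hf in
/-- Renaming a class by its other member. -/
theorem ey_flip (hf : ∀ x, f (f x) = x) (hsym : chkSym D π ε = true) {r : ℕ} (hr : r < D.nroots) (hm : π r ≠ r)
    (t : F) : ey G π ε f r t = ey G π ε f (π r) ((ε r : F) * f t) := by
  obtain ⟨h1, h2, h3, h4⟩ := sym_spec π ε hsym hr
  obtain ⟨c1, -⟩ := h4 hm
  have e : (ε (π r) : F) * f ((ε r : F) * f t) = t := by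
    rw [map_mul, map_intCast, hf, ← mul_assoc, ← Int.cast_mul, mul_comm (ε (π r)), h3, Int.cast_one, one_mul]
  simp only [ey, h2, if_neg hm, if_neg (Ne.symm hm), e]
  exact (commute_nil0 G c1 _ _).eq

include hf hsym

/-- The system of class elements in the ambient group. -/
noncomputable def eySys (α : ℕ) (ψ : AddChar F ℂ) : Sys (GL D.Idx F) F where
  el r t := if r < D.nroots then ey G π ε f r t else 1
  P := eyP π f
  el_add r t _ u _ := by
    have := hf t
    split_ifs with hr
    · by_cases hm : π r = r
      · simp [ey, hm, G.xg_add]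
      · obtain ⟨-, -, -, h4⟩ := sym_spec π ε hsym hr
        simp only [ey, if_neg hm, map_add, mul_add, ← G.xg_add]
        generalize (ε r : F) * f t = t', (ε r : F) * f u = u'
        rw [mul_assoc, mul_assoc, ← mul_assoc (G.xg r u), ← mul_assoc (G.xg (π r) t'),
          (commute_nil0 G (h4 hm).2 t' u).eq]
    · rw [mul_one]
  one_mem _ _ := map_one f
  ψ := ψ
  α := α

variable (α : ℕ) (ψ : AddChar F ℂ)

local notation "S₀" => eySys G π ε f hsym hf α ψ

theorem eySys_el {r : ℕ} (hr : r < D.nroots) (t : F) : (S₀).el r t = ey G π ε f r t := if_pos hr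

theorem flip_class {r : ℕ} (hr : r < D.nroots) (hm : π r ≠ r) :
    (S₀).Flip r (π r) fun t => (ε r : F) * f t := by
  obtain ⟨h1, h2, h3, -⟩ := sym_spec π ε hsym hr
  refine ⟨fun t u => by simp only [map_add, mul_add], fun t e => ?_, fun t _ h => absurd (h2.symm.trans h) (Ne.symm ?_),
    fun y _ => ?_, fun t _ => ?_⟩
  · have hne : (ε r : F) ≠ 0 := fun e0 => one_ne_zero (α := F) (by
      rw [← Int.cast_one, ← h3, Int.cast_mul, e0, zero_mul])
    rw [← hf t, (mul_eq_zero.1 e).resolve_left hne, map_zero]
  · exact hm
  · refine ⟨(ε (π r) : F) * f y, fun h => absurd h hm, ?_⟩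
    simp only [map_mul, map_intCast, hf, ← mul_assoc, ← Int.cast_mul, h3, Int.cast_one, one_mul]
  · rw [eySys_el G π ε f hsym hf α ψ hr, eySys_el G π ε f hsym hf α ψ h1]
    exact ey_flip G π ε f hf hsym hr hm t

theorem flip_cls {k : ℕ} (hk : k < D.nroots) : ∃ g, (S₀).Flip k (cls π k) g := by
  rcases le_total k (π k) with h | h
  · exact ⟨id, by rw [cls, min_eq_left h]; exact Sys.Flip.refl k⟩
  · rw [cls, min_eq_right h]
    by_cases hm : π k = k
    · exact ⟨id, by rw [hm]; exact Sys.Flip.refl k⟩
    · exact ⟨_, flip_class G π ε f hsym hf α ψ hk hm⟩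

theorem mem_Hs_cls {k : ℕ} (hk : k < D.nroots) {v : F} (hv : v ∈ eyP π f k) {T : List ℕ} (hT : cls π k ∈ T) :
    ey G π ε f k v ∈ (S₀).Hs T := by
  obtain ⟨g, -, -, gP, -, gE⟩ := flip_cls G π ε f hsym hf α ψ hk
  rw [← eySys_el G π ε f hsym hf α ψ hk, gE v hv]
  exact (S₀).el_mem_Hs hT (gP v hv)

theorem zero_spec {a b : ℕ} (ha : a < D.nroots) (hb : b < D.nroots) (h : zero? D π a b = true) :
    (S₀).Sw a b [] := by
  intro t _ u _
  refine ⟨1, one_mem _, ?_⟩
  rw [mul_one, eySys_el G π ε f hsym hf α ψ ha, eySys_el G π ε f hsym hf α ψ hb]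
  simp only [zero?, List.all_eq_true] at h
  have c : ∀ r ∈ mems π a, ∀ s ∈ mems π b, ∀ x y : F, Commute (G.xg s y) (G.xg r x) :=
    fun r hr s hs x y => (commute_nil0 G (h r hr s hs) x y).symm
  by_cases hma : π a = a <;> by_cases hmb : π b = b <;> simp only [ey, hma, hmb, if_true, if_false] <;>
    simp only [mems, hma, hmb, if_true, if_false, List.mem_cons, List.not_mem_nil, or_false] at c
  · exact (c a rfl b rfl _ _).eq
  · exact ((c a rfl b (Or.inl rfl) _ _).mul_left (c a rfl _ (Or.inr rfl) _ _)).eq
  · exact ((c a (Or.inl rfl) b rfl _ _).mul_right (c _ (Or.inr rfl) b rfl _ _)).eq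
  · exact (((c a (Or.inl rfl) b (Or.inl rfl) _ _).mul_left (c a (Or.inl rfl) _ (Or.inr rfl) _ _)).mul_right
      ((c _ (Or.inr rfl) b (Or.inl rfl) _ _).mul_left (c _ (Or.inr rfl) _ (Or.inr rfl) _ _))).eq

theorem ll_spec {a b k : ℕ} (h : ll? D π a b = some k) : k < D.nroots ∧ (S₀).Exact a b k := by
  simp only [ll?] at h
  split at h
  · next hab =>
    obtain ⟨hma, hmb⟩ := hab
    split at h
    · next k' M ho =>
      split at h
      · next hk =>
        obtain ⟨hk1, hk2⟩ := hk
        rw [Option.some.injEq] at h
        subst h
        rw [Nat.blt_eq] at hk1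
        obtain ⟨ha, hb, -, -, -, -⟩ := one_spec ho
        have hM := one_cast_ne ho F
        refine ⟨hk1, fun t u => -((M : F) * (t * u)), fun t ht u hu _ => ?_, fun t t' u => by ring,
          fun t u u' => by ring, fun t ht h0 y hy => ?_, fun u hu h0 y hy => ?_, fun t _ u _ => ?_⟩
        · rw [map_neg, map_mul, map_mul, map_intCast, ht hma, hu hmb]
        · refine ⟨-y / ((M : F) * t), fun _ => ?_, ?_⟩
          · rw [map_div₀, map_neg, map_mul, map_intCast, ht hma, hy hk2]
          · field_simp
        · refine ⟨-y / ((M : F) * u), fun _ => ?_, ?_⟩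
          · rw [map_div₀, map_neg, map_mul, map_intCast, hu hmb, hy hk2]
          · field_simp
        · rw [eySys_el G π ε f hsym hf α ψ ha, eySys_el G π ε f hsym hf α ψ hb, eySys_el G π ε f hsym hf α ψ hk1]
          simp only [ey, hma, hmb, hk2, if_true]
          exact swap_one G ho t u
      · exact absurd h (by simp)
    · exact absurd h (by simp)
  · exact absurd h (by simp)

theorem ss_spec (hnt : ∃ x, f x ≠ x) {a b k : ℕ} (h : ss? D π ε a b = some k) :
    k < D.nroots ∧ (S₀).Exact a b k := by
  simp only [ss?] at h
  split at h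
  · next hab =>
    obtain ⟨hma, hmb⟩ := hab
    split at h
    · next k₀ M k' M' ho ho' =>
      split at h
      · next hc =>
        rw [Option.some.injEq] at h
        subst h
        obtain ⟨n1, n2, n3, n4, hk1, hcase⟩ := hc
        rw [Nat.blt_eq] at hk1
        obtain ⟨ha, hb, -, -, -, -⟩ := one_spec ho
        have hM := one_cast_ne ho F
        refine ⟨hk1, ?_⟩
        have key : ∀ t u : F, ey G π ε f b u * ey G π ε f a t = ey G π ε f a t * ey G π ε f b u *
            (G.xg k₀ (-((M : F) * (t * u))) * G.xg k' (-((M' : F) * ((ε a : F) * f t * ((ε b : F) * f u))))) := by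
          intro t u
          simp only [ey, if_neg hma, if_neg hmb]
          generalize (ε a : F) * f t = t', (ε b : F) * f u = u'
          calc G.xg b u * G.xg (π b) u' * (G.xg a t * G.xg (π a) t')
              = G.xg b u * (G.xg (π b) u' * G.xg a t) * G.xg (π a) t' := by simp only [mul_assoc]
            _ = G.xg b u * G.xg a t * (G.xg (π b) u' * G.xg (π a) t') := by
                rw [(commute_nil0 G n1 t u').symm.eq]; simp only [mul_assoc]
            _ = G.xg a t * G.xg b u * G.xg k₀ (-((M : F) * (t * u))) *
                  (G.xg (π a) t' * G.xg (π b) u' * G.xg k' (-((M' : F) * (t' * u')))) := by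
                rw [swap_one G ho, swap_one G ho']
            _ = G.xg a t * G.xg b u * (G.xg k₀ (-((M : F) * (t * u))) * (G.xg (π a) t' * G.xg (π b) u')) *
                  G.xg k' (-((M' : F) * (t' * u'))) := by simp only [mul_assoc]
            _ = G.xg a t * (G.xg b u * G.xg (π a) t') * G.xg (π b) u' *
                  (G.xg k₀ (-((M : F) * (t * u))) * G.xg k' (-((M' : F) * (t' * u')))) := by
                rw [(((commute_nil0 G n3 t' _).mul_left (commute_nil0 G n4 u' _)).symm).eq]
                simp only [mul_assoc]
            _ = _ := by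
                rw [(commute_nil0 G n2 t' u).symm.eq]; simp only [mul_assoc]
        rcases hcase with ⟨hk2, rfl, he⟩ | ⟨hk2, rfl, he⟩
        · have he' : (M' : F) * (ε a : F) * (ε b : F) = M := by exact_mod_cast congrArg (Int.cast (R := F)) he
          have surj : ∀ c : F, c ≠ 0 → ∀ y, f y = y → ∃ u, c * u + f (c * u) = y := by
            intro c hc y hy
            obtain ⟨w, hw⟩ : ∃ w : F, w + f w ≠ 0 := by
              by_contra hall
              push Not at hall
              obtain ⟨x, hx⟩ := hnt
              have h1 := hall 1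
              rw [map_one] at h1
              refine hx ?_
              have := hall x
              linear_combination this - x * h1
            refine ⟨w * y / (w + f w) / c, ?_⟩
            rw [mul_div_cancel₀ _ hc, map_div₀, map_mul, map_add, hf, hy, add_comm (f w), ← add_div,
              ← add_mul, mul_div_cancel_left₀ _ hw]
          refine ⟨fun t u => -((M : F) * (t * u)) + f (-((M : F) * (t * u))), fun t _ u _ _ => ?_,
            fun t t' u => by simp only [add_mul, mul_add, neg_add, map_add]; abel,
            fun t u u' => by simp only [mul_add, neg_add, map_add]; abel, fun t _ h0 y hy => ?_,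
            fun u _ h0 y hy => ?_, fun t _ u _ => ?_⟩
          · rw [map_add, hf, add_comm]
          · obtain ⟨u, hu⟩ := surj (-((M : F) * t)) (neg_ne_zero.2 (mul_ne_zero hM h0)) y (hy hk2)
            refine ⟨u, fun h => absurd h hmb, ?_⟩
            rw [← hu]; simp only [neg_mul, mul_assoc]
          · obtain ⟨t, ht⟩ := surj (-((M : F) * u)) (neg_ne_zero.2 (mul_ne_zero hM h0)) y (hy hk2)
            refine ⟨t, fun h => absurd h hma, ?_⟩
            rw [← ht]; simp only [neg_mul, mul_assoc, mul_comm t u]
          · rw [eySys_el G π ε f hsym hf α ψ ha, eySys_el G π ε f hsym hf α ψ hb,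
              eySys_el G π ε f hsym hf α ψ hk1, key t u]
            simp only [ey, hk2, if_true, ← G.xg_add]
            congr 2
            rw [map_neg, map_mul, map_mul, map_intCast, ← he']
            ring
        · have he' : (M' : F) * (ε a : F) * (ε b : F) = (ε k₀ : F) * M := by
            exact_mod_cast congrArg (Int.cast (R := F)) he
          refine ⟨fun t u => -((M : F) * (t * u)), fun t _ u _ h => absurd h hk2, fun t t' u => by ring,
            fun t u u' => by ring, fun t _ h0 y _ => ⟨-y / ((M : F) * t), fun h => absurd h hmb, by field_simp⟩,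
            fun u _ h0 y _ => ⟨-y / ((M : F) * u), fun h => absurd h hma, by field_simp⟩, fun t _ u _ => ?_⟩
          rw [eySys_el G π ε f hsym hf α ψ ha, eySys_el G π ε f hsym hf α ψ hb,
            eySys_el G π ε f hsym hf α ψ hk1, key t u]
          congr 1
          simp only [ey, if_neg hk2]
          congr 2
          rw [map_neg, map_mul, map_mul, map_intCast]
          linear_combination (-(f t * f u)) * he'
      · exact absurd h (by simp)
    · exact absurd h (by simp)
  · exact absurd h (by simp)

theorem ls_spec {a b k l : ℕ} (h : ls? D π ε a b = some (k, l)) :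
    (S₀).Sw a b [cls π k, l] := by
  simp only [ls?] at h
  split at h
  · next hab =>
    obtain ⟨hma, hmb⟩ := hab
    split at h
    · next k₀ M k' M' ho ho' =>
      split at h
      · next l₀ M'' ho'' =>
        split at h
        · next hc =>
          obtain ⟨hkm, rfl, hl2, n1, he⟩ := hc
          simp only [Option.some.injEq, Prod.mk.injEq] at h
          obtain ⟨rfl, rfl⟩ := h
          obtain ⟨ha, hb, -, -, -, -⟩ := one_spec ho
          have hk := one_lt G ho
          have hl := one_lt G ho''
          have he' : (M' : F) * (ε b : F) = (ε k₀ : F) * M := by exact_mod_cast congrArg (Int.cast (R := F)) he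
          intro t ht u _
          set a1 := -((M : F) * (t * u))
          set c := -((M'' : F) * ((ε b : F) * f u * a1))
          refine ⟨ey G π ε f k₀ a1 * ey G π ε f l₀ c, mul_mem (mem_Hs_cls G π ε f hsym hf α ψ hk
            (fun h => absurd h hkm) List.mem_cons_self) (mem_Hs_cls G π ε f hsym hf α ψ hl (fun _ => ?_)
              (List.mem_cons_of_mem _ (by rw [cls, hl2, min_self]; exact List.mem_cons_self))), ?_⟩
          · simp only [c, a1, map_neg, map_mul, map_intCast, hf, ht hma]
            ring
          rw [eySys_el G π ε f hsym hf α ψ ha, eySys_el G π ε f hsym hf α ψ hb]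
          simp only [ey, hma, hmb, hkm, hl2, if_true, if_false]
          have eb : (ε k₀ : F) * f a1 = -((M' : F) * (t * ((ε b : F) * f u))) := by
            simp only [a1, map_neg, map_mul, map_intCast, ht hma]
            linear_combination (t * f u) * he'
          rw [eb]
          have cc : ∀ x, Commute (G.xg l₀ c) (G.xg (π k₀) x) := fun x => commute_nil0 G n1 c x
          calc G.xg b u * G.xg (π b) ((ε b : F) * f u) * G.xg a t
              = G.xg b u * G.xg a t *
                  (G.xg (π b) ((ε b : F) * f u) * G.xg (π k₀) (-((M' : F) * (t * ((ε b : F) * f u))))) := by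
                rw [mul_assoc (G.xg b u), swap_one G ho']; simp only [mul_assoc]
            _ = G.xg a t * G.xg b u * (G.xg k₀ a1 * G.xg (π b) ((ε b : F) * f u)) *
                  G.xg (π k₀) (-((M' : F) * (t * ((ε b : F) * f u)))) := by
                rw [swap_one G ho]; simp only [a1, mul_assoc]
            _ = G.xg a t * G.xg b u * G.xg (π b) ((ε b : F) * f u) *
                  (G.xg k₀ a1 * (G.xg l₀ c * G.xg (π k₀) (-((M' : F) * (t * ((ε b : F) * f u)))))) := by
                rw [swap_one G ho'']; simp only [c, mul_assoc]
            _ = _ := by rw [(cc _).eq]; simp only [mul_assoc]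
        · exact absurd h (by simp)
      · exact absurd h (by simp)
    · exact absurd h (by simp)
  · exact absurd h (by simp)

theorem sl_spec {a b k l : ℕ} (h : sl? D π ε a b = some (k, l)) :
    (S₀).Sw a b [cls π k, l] := by
  simp only [sl?] at h
  split at h
  · next hab =>
    obtain ⟨hma, hmb⟩ := hab
    split at h
    · next k₀ M k' M' ho ho' =>
      split at h
      · next l₀ M'' ho'' =>
        split at h
        · next hc =>
          obtain ⟨hkm, rfl, hl2, n1, he⟩ := hc
          simp only [Option.some.injEq, Prod.mk.injEq] at h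
          obtain ⟨rfl, rfl⟩ := h
          obtain ⟨ha, hb, -, -, -, -⟩ := one_spec ho
          have hk := one_lt G ho
          have hl := one_lt G ho''
          have he' : (M' : F) * (ε a : F) = (ε k₀ : F) * M := by exact_mod_cast congrArg (Int.cast (R := F)) he
          intro t _ u hu
          set a1 := -((M : F) * (t * u))
          set c := -((M'' : F) * ((ε a : F) * f t * a1))
          refine ⟨ey G π ε f k₀ a1 * ey G π ε f l₀ c, mul_mem (mem_Hs_cls G π ε f hsym hf α ψ hk
            (fun h => absurd h hkm) List.mem_cons_self) (mem_Hs_cls G π ε f hsym hf α ψ hl (fun _ => ?_)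
              (List.mem_cons_of_mem _ (by rw [cls, hl2, min_self]; exact List.mem_cons_self))), ?_⟩
          · simp only [c, a1, map_neg, map_mul, map_intCast, hf, hu hmb]
            ring
          rw [eySys_el G π ε f hsym hf α ψ ha, eySys_el G π ε f hsym hf α ψ hb]
          simp only [ey, hma, hmb, hkm, hl2, if_true, if_false]
          have eb : (ε k₀ : F) * f a1 = -((M' : F) * ((ε a : F) * f t * u)) := by
            simp only [a1, map_neg, map_mul, map_intCast, hu hmb]
            linear_combination (f t * u) * he'
          rw [eb]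
          calc G.xg b u * (G.xg a t * G.xg (π a) ((ε a : F) * f t))
              = G.xg a t * G.xg b u * (G.xg k₀ a1 * G.xg (π a) ((ε a : F) * f t)) := by
                rw [← mul_assoc, swap_one G ho]; simp only [a1, mul_assoc]
            _ = G.xg a t * (G.xg b u * G.xg (π a) ((ε a : F) * f t)) * (G.xg k₀ a1 * G.xg l₀ c) := by
                rw [swap_one G ho'']; simp only [c, mul_assoc]
            _ = G.xg a t * G.xg (π a) ((ε a : F) * f t) * G.xg b u *
                  (G.xg (π k₀) (-((M' : F) * ((ε a : F) * f t * u))) * G.xg k₀ a1 * G.xg l₀ c) := by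
                rw [swap_one G ho']; simp only [mul_assoc]
            _ = _ := by rw [((commute_nil0 G n1 a1 _).symm).eq]
        · exact absurd h (by simp)
      · exact absurd h (by simp)
    · exact absurd h (by simp)
  · exact absurd h (by simp)

theorem exact_spec (hnt : ∃ x, f x ≠ x) {a b k : ℕ} (h : exact? D π ε a b = some k) : (S₀).Exact a b k := by
  simp only [exact?] at h
  split at h
  · next hab =>
    simp only [Bool.and_eq_true, Nat.blt_eq] at hab
    split at h
    · next k₀ h₀ =>
      rw [Option.some.injEq] at h
      exact h ▸ (ll_spec G π ε f hsym hf α ψ h₀).2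
    · split at h
      · next k₀ h₀ =>
        rw [Option.some.injEq] at h
        obtain ⟨hk, he⟩ := ss_spec G π ε f hsym hf α ψ hnt h₀
        obtain ⟨g, hg⟩ := flip_cls G π ε f hsym hf α ψ hk
        exact h ▸ Sys.Exact.flip (Sys.Flip.refl b) hg he
      · split at h
        · next k₀ h₀ =>
          rw [Option.some.injEq] at h
          obtain ⟨hk, he⟩ := ss_spec G π ε f hsym hf α ψ hnt h₀
          obtain ⟨g, hg⟩ := flip_cls G π ε f hsym hf α ψ hk
          by_cases hm : π b = b
          · rw [hm] at he
            exact h ▸ Sys.Exact.flip (Sys.Flip.refl b) hg he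
          · exact h ▸ Sys.Exact.flip (flip_class G π ε f hsym hf α ψ hab.2 hm) hg he
        · exact absurd h (by simp)
  · exact absurd h (by simp)

/-- The table of targets is correct. -/
theorem sw_spec (hnt : ∃ x, f x ≠ x) {a b : ℕ} {T : List ℕ} (h : sw? D π ε a b = some T) : (S₀).Sw a b T := by
  simp only [sw?] at h
  split at h
  · next hab =>
    simp only [Bool.and_eq_true, Nat.blt_eq] at hab
    split at h
    · next hz =>
      rw [Option.some.injEq] at h
      exact h ▸ zero_spec G π ε f hsym hf α ψ hab.1 hab.2 hz
    · split at h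
      · next k₀ h₀ =>
        rw [Option.some.injEq] at h
        exact h ▸ (exact_spec G π ε f hsym hf α ψ hnt h₀).sw
      · split at h
        · next k₀ l₀ h₀ =>
          rw [Option.some.injEq] at h
          exact h ▸ ls_spec G π ε f hsym hf α ψ h₀
        · split at h
          · next k₀ l₀ h₀ =>
            rw [Option.some.injEq] at h
            exact h ▸ sl_spec G π ε f hsym hf α ψ h₀
          · exact absurd h (by simp)
  · exact absurd h (by simp)

end Cfsg.Agent.H75.MinDeg
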