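import Cfsg.Agent.H46.TwistField
import Mathlib

/-!
# Two numbers below the bound that do not divide the order of ²E₆(q)
-/

set_option autoImplicit false
set_option linter.style.longLine false

namespace Cfsg.Agent.H75.MinDeg

/-- Replacing a power of a factor by a power of a Bezout constant. -/
theorem dvd_step {M A s t c : ℤ} (h : s * M + t * A = c) : ∀ (n : ℕ) {C B : ℤ}, M ∣ C * (A ^ n * B) →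
    M ∣ C * c ^ n * B := by
  intro n
  induction n with
  | zero => intro C B hd; simpa using hd
  | succ n ih =>
    intro C B hd
    have h1 : M ∣ c * (C * (A ^ n * B)) := by
      have e : c * (C * (A ^ n * B)) = M * (s * (C * (A ^ n * B))) + t * (C * (A ^ (n + 1) * B)) := by
        rw [← h, pow_succ]; ring
      rw [e]
      exact dvd_add (dvd_mul_right _ _) (hd.mul_left t)
    have h2 := ih (C := c * C) (B := B) (by rwa [mul_assoc])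
    rwa [show C * c ^ (n + 1) * B = c * C * c ^ n * B by rw [pow_succ]; ring]

/-- The cyclotomic part. -/
theorem cyc1_dvd (q C : ℤ) (h : q ^ 7 + q ^ 5 - q ^ 4 + q ^ 3 - q ^ 2 + q - 1 ∣ C * ((q - 1) ^ 4 * ((q + 1) ^ 6 * ((q ^ 2 + q + 1) ^ 2 * ((q ^ 2 + 1) ^ 2 * ((q ^ 2 - q + 1) ^ 3 * ((q ^ 4 + 1) ^ 1 * ((q ^ 4 - q ^ 3 + q ^ 2 - q + 1) ^ 1 * ((q ^ 6 - q ^ 3 + 1) ^ 1 * 1))))))))) :
    q ^ 7 + q ^ 5 - q ^ 4 + q ^ 3 - q ^ 2 + q - 1 ∣ C * (117649 : ℤ) := by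
  replace h := dvd_step (s := (1)) (t := (-2) + (-1) * q ^ 1 + (-2) * q ^ 2 + (-1) * q ^ 3 + (-2) * q ^ 4 + (-1) * q ^ 5 + (-1) * q ^ 6) (c := 1) (A := q - 1) (M := q ^ 7 + q ^ 5 - q ^ 4 + q ^ 3 - q ^ 2 + q - 1) (by ring) 4 h
  replace h := dvd_step (s := (-1)) (t := (6) + (-5) * q ^ 1 + (4) * q ^ 2 + (-3) * q ^ 3 + (2) * q ^ 4 + (-1) * q ^ 5 + (1) * q ^ 6) (c := 7) (A := q + 1) (M := q ^ 7 + q ^ 5 - q ^ 4 + q ^ 3 - q ^ 2 + q - 1) (by ring) 6 h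
  replace h := dvd_step (s := (-1) + (-1) * q ^ 1) (t := (1) * q ^ 6) (c := 1) (A := q ^ 2 + q + 1) (M := q ^ 7 + q ^ 5 - q ^ 4 + q ^ 3 - q ^ 2 + q - 1) (by ring) 2 h
  replace h := dvd_step (s := (-1)) (t := (1) * q ^ 1 + (-1) * q ^ 2 + (1) * q ^ 5) (c := 1) (A := q ^ 2 + 1) (M := q ^ 7 + q ^ 5 - q ^ 4 + q ^ 3 - q ^ 2 + q - 1) (by ring) 2 h
  replace h := dvd_step (s := (1) + (-1) * q ^ 1) (t := (2) + (-2) * q ^ 3 + (1) * q ^ 6) (c := 1) (A := q ^ 2 - q + 1) (M := q ^ 7 + q ^ 5 - q ^ 4 + q ^ 3 - q ^ 2 + q - 1) (by ring) 3 h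
  replace h := dvd_step (s := (1) * q ^ 2) (t := (1) + (1) * q ^ 2 + (-1) * q ^ 3 + (-1) * q ^ 5) (c := 1) (A := q ^ 4 + 1) (M := q ^ 7 + q ^ 5 - q ^ 4 + q ^ 3 - q ^ 2 + q - 1) (by ring) 1 h
  replace h := dvd_step (s := (-1) * q ^ 1 + (1) * q ^ 2) (t := (1) + (1) * q ^ 2 + (-1) * q ^ 5) (c := 1) (A := q ^ 4 - q ^ 3 + q ^ 2 - q + 1) (M := q ^ 7 + q ^ 5 - q ^ 4 + q ^ 3 - q ^ 2 + q - 1) (by ring) 1 h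
  replace h := dvd_step (s := (-1) + (1) * q ^ 2 + (-1) * q ^ 4) (t := (1) * q ^ 1 + (1) * q ^ 5) (c := 1) (A := q ^ 6 - q ^ 3 + 1) (M := q ^ 7 + q ^ 5 - q ^ 4 + q ^ 3 - q ^ 2 + q - 1) (by ring) 1 h
  convert h using 1
  ring

/-- The cyclotomic part. -/
theorem cyc2_dvd (q C : ℤ) (h : q ^ 10 + q ^ 9 + q ^ 8 + q ^ 6 + q ^ 5 + 2 * q ^ 4 + q ^ 3 + q ^ 2 + q + 2 ∣ C * ((q - 1) ^ 3 * ((q + 1) ^ 6 * ((q ^ 2 + q + 1) ^ 2 * ((q ^ 2 + 1) ^ 2 * ((q ^ 2 - q + 1) ^ 3 * ((q ^ 4 + 1) ^ 1 * ((q ^ 4 - q ^ 3 + q ^ 2 - q + 1) ^ 1 * ((q ^ 4 - q ^ 2 + 1) ^ 1 * ((q ^ 6 - q ^ 3 + 1) ^ 1 * 1)))))))))) :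
    q ^ 10 + q ^ 9 + q ^ 8 + q ^ 6 + q ^ 5 + 2 * q ^ 4 + q ^ 3 + q ^ 2 + q + 2 ∣ C * (44845498368 : ℤ) := by
  replace h := dvd_step (s := (1)) (t := (-10) + (-9) * q ^ 1 + (-8) * q ^ 2 + (-7) * q ^ 3 + (-5) * q ^ 4 + (-4) * q ^ 5 + (-3) * q ^ 6 + (-3) * q ^ 7 + (-2) * q ^ 8 + (-1) * q ^ 9) (c := 12) (A := q - 1) (M := q ^ 10 + q ^ 9 + q ^ 8 + q ^ 6 + q ^ 5 + 2 * q ^ 4 + q ^ 3 + q ^ 2 + q + 2) (by ring) 3 h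
  replace h := dvd_step (s := (1)) (t := (2) + (-3) * q ^ 1 + (2) * q ^ 2 + (-3) * q ^ 3 + (1) * q ^ 4 + (-2) * q ^ 5 + (1) * q ^ 6 + (-1) * q ^ 7 + (-1) * q ^ 9) (c := 4) (A := q + 1) (M := q ^ 10 + q ^ 9 + q ^ 8 + q ^ 6 + q ^ 5 + 2 * q ^ 4 + q ^ 3 + q ^ 2 + q + 2) (by ring) 6 h
  replace h := dvd_step (s := (1) + (-1) * q ^ 1) (t := (1) + (-1) * q ^ 2 + (1) * q ^ 3 + (-1) * q ^ 4 + (1) * q ^ 5 + (-1) * q ^ 8 + (1) * q ^ 9) (c := 3) (A := q ^ 2 + q + 1) (M := q ^ 10 + q ^ 9 + q ^ 8 + q ^ 6 + q ^ 5 + 2 * q ^ 4 + q ^ 3 + q ^ 2 + q + 2) (by ring) 2 h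
  replace h := dvd_step (s := (1) + (-1) * q ^ 1) (t := (2) + (1) * q ^ 1 + (-2) * q ^ 2 + (-1) * q ^ 3 + (1) * q ^ 4 + (2) * q ^ 5 + (-1) * q ^ 6 + (-1) * q ^ 7 + (1) * q ^ 9) (c := 4) (A := q ^ 2 + 1) (M := q ^ 10 + q ^ 9 + q ^ 8 + q ^ 6 + q ^ 5 + 2 * q ^ 4 + q ^ 3 + q ^ 2 + q + 2) (by ring) 2 h
  replace h := dvd_step (s := (-1) + (1) * q ^ 1) (t := (3) + (2) * q ^ 1 + (-1) * q ^ 2 + (-3) * q ^ 3 + (-1) * q ^ 4 + (1) * q ^ 5 + (2) * q ^ 6 + (-1) * q ^ 8 + (-1) * q ^ 9) (c := 1) (A := q ^ 2 - q + 1) (M := q ^ 10 + q ^ 9 + q ^ 8 + q ^ 6 + q ^ 5 + 2 * q ^ 4 + q ^ 3 + q ^ 2 + q + 2) (by ring) 3 h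
  replace h := dvd_step (s := (1) + (-1) * q ^ 1) (t := (1) * q ^ 1 + (-1) * q ^ 4 + (1) * q ^ 7) (c := 2) (A := q ^ 4 + 1) (M := q ^ 10 + q ^ 9 + q ^ 8 + q ^ 6 + q ^ 5 + 2 * q ^ 4 + q ^ 3 + q ^ 2 + q + 2) (by ring) 1 h
  replace h := dvd_step (s := (6) + (-3) * q ^ 1 + (-1) * q ^ 2 + (-1) * q ^ 3) (t := (-1) + (-1) * q ^ 1 + (-1) * q ^ 2 + (-1) * q ^ 3 + (-7) * q ^ 4 + (-4) * q ^ 5 + (3) * q ^ 6 + (7) * q ^ 7 + (3) * q ^ 8 + (1) * q ^ 9) (c := 11) (A := q ^ 4 - q ^ 3 + q ^ 2 - q + 1) (M := q ^ 10 + q ^ 9 + q ^ 8 + q ^ 6 + q ^ 5 + 2 * q ^ 4 + q ^ 3 + q ^ 2 + q + 2) (by ring) 1 h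
  replace h := dvd_step (s := (1) + (-1) * q ^ 1) (t := (-1) + (1) * q ^ 1 + (-1) * q ^ 2 + (1) * q ^ 3 + (-1) * q ^ 4 + (1) * q ^ 5 + (1) * q ^ 7) (c := 1) (A := q ^ 4 - q ^ 2 + 1) (M := q ^ 10 + q ^ 9 + q ^ 8 + q ^ 6 + q ^ 5 + 2 * q ^ 4 + q ^ 3 + q ^ 2 + q + 2) (by ring) 1 h
  replace h := dvd_step (s := (1) + (-1) * q ^ 1) (t := (1) * q ^ 1 + (1) * q ^ 5) (c := 2) (A := q ^ 6 - q ^ 3 + 1) (M := q ^ 10 + q ^ 9 + q ^ 8 + q ^ 6 + q ^ 5 + 2 * q ^ 4 + q ^ 3 + q ^ 2 + q + 2) (by ring) 1 h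
  convert h using 1
  ring

/-- The order, up to the central factor. -/
def ordE6 (q : ℕ) : ℕ :=
  q ^ 36 * (q ^ 2 - 1) * (q ^ 5 + 1) * (q ^ 6 - 1) * (q ^ 8 - 1) * (q ^ 9 + 1) * (q ^ 12 - 1)

theorem ordE6_cast {q : ℕ} (hq : 1 ≤ q) : (ordE6 q : ℤ) = (q : ℤ) ^ 36 * ((q : ℤ) ^ 2 - 1) * ((q : ℤ) ^ 5 + 1) *
    ((q : ℤ) ^ 6 - 1) * ((q : ℤ) ^ 8 - 1) * ((q : ℤ) ^ 9 + 1) * ((q : ℤ) ^ 12 - 1) := by
  have h : ∀ n, 1 ≤ q ^ n := fun n => Nat.one_le_pow _ _ hq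
  simp only [ordE6]
  push_cast [h 2, h 6, h 8, h 12]
  rfl

/-- The bound minus one is not a divisor of the order. -/
theorem not_dvd_one {q N : ℕ} (hq : 2 ≤ q) (hN : (N : ℤ) + 1 = (q : ℤ) * ((q : ℤ) ^ 6 - (q : ℤ) ^ 3 + 1) * ((q : ℤ) ^ 4 + 1)) :
    ¬ N ∣ ordE6 q := by
  intro h
  rcases Nat.lt_or_ge q 6 with hs | hs
  · interval_cases q <;> norm_num at hN
    all_goals
      have e : N = (N + 1) - 1 := rfl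
      rw [show N + 1 = _ from (by exact_mod_cast hN)] at e
      subst e
      norm_num [ordE6] at h
  set Q : ℤ := (q : ℤ) with hQ
  have hQ2 : (6 : ℤ) ≤ Q := by rw [hQ]; exact_mod_cast hs
  have hd : (N : ℤ) ∣ (ordE6 q : ℤ) := Int.natCast_dvd_natCast.2 h
  rw [ordE6_cast (by omega), show (N : ℤ) = (Q ^ 4 - Q ^ 2 + 1) *
    (Q ^ 7 + Q ^ 5 - Q ^ 4 + Q ^ 3 - Q ^ 2 + Q - 1) by linear_combination hN] at hd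
  have hpos : (Q ^ 4 - Q ^ 2 + 1) ≠ 0 := by
    have : 0 < Q ^ 4 - Q ^ 2 + 1 := by nlinarith [sq_nonneg (Q ^ 2 - 1), sq_nonneg Q]
    omega
  have hd' : Q ^ 7 + Q ^ 5 - Q ^ 4 + Q ^ 3 - Q ^ 2 + Q - 1 ∣ 1 * (Q ^ 36 * ((Q - 1) ^ 4 * ((Q + 1) ^ 6 *
      ((Q ^ 2 + Q + 1) ^ 2 * ((Q ^ 2 + 1) ^ 2 * ((Q ^ 2 - Q + 1) ^ 3 * ((Q ^ 4 + 1) ^ 1 *
      ((Q ^ 4 - Q ^ 3 + Q ^ 2 - Q + 1) ^ 1 * ((Q ^ 6 - Q ^ 3 + 1) ^ 1 * 1))))))))) := by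
    refine (mul_dvd_mul_iff_left hpos).1 (hd.trans (dvd_of_eq ?_))
    ring
  have h2 := dvd_step (s := (-1 : ℤ)) (t := Q ^ 6 + Q ^ 4 - Q ^ 3 + Q ^ 2 - Q + 1) (c := 1) (A := Q) (by ring) 36 hd'
  rw [one_pow, mul_one] at h2
  have h3 := Int.le_of_dvd (by norm_num) (cyc1_dvd Q 1 h2)
  have h6 : (6 : ℤ) ^ 7 ≤ Q ^ 7 := pow_le_pow_left₀ (by norm_num) hQ2 7
  have h5 : 0 ≤ (Q - 1) * (Q ^ 4 + Q ^ 2 + 1) := mul_nonneg (by linarith) (by positivity)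
  nlinarith

/-- The bound minus two is not a divisor of the order. -/
theorem not_dvd_two {q N : ℕ} (hq : IsPrimePow q)
    (hN : (N : ℤ) + 2 = (q : ℤ) * ((q : ℤ) ^ 6 - (q : ℤ) ^ 3 + 1) * ((q : ℤ) ^ 4 + 1)) : ¬ N ∣ ordE6 q := by
  intro h
  have hq2 : 2 ≤ q := hq.two_le
  rcases Nat.lt_or_ge q 13 with hs | hs
  · interval_cases q <;> norm_num at hN
    all_goals
      have e : N = (N + 2) - 2 := rfl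
      rw [show N + 2 = _ from (by exact_mod_cast hN)] at e
      subst e
      norm_num [ordE6] at h
  have h24 : q % 4 ≠ 2 := by
    obtain ⟨p, k, hp, hk, rfl⟩ := hq
    intro e
    have hp' : p.Prime := hp.nat_prime
    have h2 : 2 ∣ p ^ k := Nat.dvd_of_mod_eq_zero (by omega)
    obtain rfl : 2 = p := (Nat.prime_dvd_prime_iff_eq Nat.prime_two hp').1 (Nat.prime_two.dvd_of_dvd_pow h2)
    rcases Nat.lt_or_ge k 2 with h | h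
    · interval_cases k; simp at hs
    · have : 4 ∣ 2 ^ k := dvd_trans (by norm_num) (pow_dvd_pow 2 h)
      omega
  set Q : ℤ := (q : ℤ) with hQ
  have hQ2 : (13 : ℤ) ≤ Q := by rw [hQ]; exact_mod_cast hs
  have hd : (N : ℤ) ∣ (ordE6 q : ℤ) := Int.natCast_dvd_natCast.2 h
  rw [ordE6_cast (by omega), show (N : ℤ) = (Q - 1) *
    (Q ^ 10 + Q ^ 9 + Q ^ 8 + Q ^ 6 + Q ^ 5 + 2 * Q ^ 4 + Q ^ 3 + Q ^ 2 + Q + 2) by linear_combination hN] at hd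
  have hd' : Q ^ 10 + Q ^ 9 + Q ^ 8 + Q ^ 6 + Q ^ 5 + 2 * Q ^ 4 + Q ^ 3 + Q ^ 2 + Q + 2 ∣ 1 * (Q ^ 36 * ((Q - 1) ^ 3 * ((Q + 1) ^ 6 *
      ((Q ^ 2 + Q + 1) ^ 2 * ((Q ^ 2 + 1) ^ 2 * ((Q ^ 2 - Q + 1) ^ 3 * ((Q ^ 4 + 1) ^ 1 *
      ((Q ^ 4 - Q ^ 3 + Q ^ 2 - Q + 1) ^ 1 * ((Q ^ 4 - Q ^ 2 + 1) ^ 1 * ((Q ^ 6 - Q ^ 3 + 1) ^ 1 * 1)))))))))) := by
    refine (mul_dvd_mul_iff_left (show Q - 1 ≠ 0 by omega)).1 (hd.trans (dvd_of_eq ?_))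
    ring
  set S := Q ^ 9 + Q ^ 8 + Q ^ 7 + Q ^ 5 + Q ^ 4 + 2 * Q ^ 3 + Q ^ 2 + Q + 1 with hSdef
  have hMS : Q ^ 10 + Q ^ 9 + Q ^ 8 + Q ^ 6 + Q ^ 5 + 2 * Q ^ 4 + Q ^ 3 + Q ^ 2 + Q + 2 = Q * S + 2 := by
    rw [hSdef]; ring
  have key : Q ^ 10 + Q ^ 9 + Q ^ 8 + Q ^ 6 + Q ^ 5 + 2 * Q ^ 4 + Q ^ 3 + Q ^ 2 + Q + 2 ∣ (2 : ℤ) * 44845498368 := by
    rcases Nat.even_or_odd' q with ⟨r, hr | hr⟩
    · obtain ⟨w, hw⟩ : ∃ w, r = 2 * w := ⟨r / 2, by omega⟩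
      have hQw : Q = 4 * (w : ℤ) := by rw [hQ, hr, hw]; push_cast; ring
      have e2 : Q ^ 10 + Q ^ 9 + Q ^ 8 + Q ^ 6 + Q ^ 5 + 2 * Q ^ 4 + Q ^ 3 + Q ^ 2 + Q + 2 =
          2 * (2 * (w : ℤ) * S + 1) := by rw [hMS, hQw]; ring
      have h2 : (2 * (w : ℤ) * S + 1) ∣ 1 * (Q ^ 36 * _) :=
        dvd_trans (dvd_mul_left _ 2) (e2 ▸ hd')
      have h3 := dvd_step (s := 1 - 2 * (w : ℤ) * S) (t := (w : ℤ) * S ^ 2) (c := 1) (A := Q)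
        (by rw [hQw]; ring) 36 h2
      rw [one_pow, mul_one, one_mul] at h3
      refine cyc2_dvd Q 2 ?_
      rw [e2]
      exact mul_dvd_mul_left 2 h3
    · have hQr : Q = 2 * (r : ℤ) + 1 := by rw [hQ, hr]; push_cast; ring
      have h3 := dvd_step (s := -(r : ℤ)) (t := 1 + (r : ℤ) * S) (c := 1) (A := Q)
        (by rw [hMS, hQr]; ring) 36 hd'
      rw [one_pow, mul_one] at h3
      exact (cyc2_dvd Q 1 h3).trans (mul_dvd_mul_right (one_dvd 2) _)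
  have h3 := Int.le_of_dvd (by norm_num) key
  have h6 : (13 : ℤ) ^ 10 ≤ Q ^ 10 := pow_le_pow_left₀ (by norm_num) hQ2 10
  have h5 : 0 ≤ Q ^ 9 + Q ^ 8 + Q ^ 6 + Q ^ 5 + 2 * Q ^ 4 + Q ^ 3 + Q ^ 2 + Q := by positivity
  nlinarith

end Cfsg.Agent.H75.MinDeg
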