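import Cfsg.Agent.H75.MinDeg.E6Main
import Cfsg.Agent.H75.MinDeg.E6Arith
import Cfsg.Agent.H25.CharIntegral
import Cfsg.Agent.S1066
import Cfsg.Agent.S1070

/-!
# The smallest degree of ²E₆(q)
-/

set_option autoImplicit false

namespace Cfsg.Agent.H75.MinDeg

open Cfsg.Lie Cfsg.Agent.H46 Module

/-- Every irreducible complex representation of degree at least two has degree at least
`q (q⁶ - q³ + 1)(q⁴ + 1)`. -/
theorem min_degree_E6 {K : Type*} [Field K] [Fintype K] {q : ℕ} (hq : IsPrimePow q) (hK : Fintype.card K = q ^ 2)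
    {k : ℕ} (ρ : Representation ℂ ↥(twistedE6 K q) (Fin k → ℂ)) (hρ : ρ.IsIrreducible) (hk : 2 ≤ k) :
    q * (q ^ 6 - q ^ 3 + 1) * (q ^ 4 + 1) ≤ k := by
  classical
  obtain ⟨f, hf⟩ := exists_qFrob hq (by norm_num : 0 < 2) hK
  have hq2 : 2 ≤ q := hq.two_le
  have : ρ.IsIrreducible := hρ
  have hdvd : k ∣ Nat.card ↥(twistedE6 K q) := by
    have := Cfsg.Agent.H25.finrank_dvd_card ρ
    rwa [finrank_fin_fun] at this
  let e := MulEquiv.subgroupCongr (twistedE6_eq f hf hK)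
  have hsimple : IsSimpleGroup ↥(tdE6 f).G1 := by
    have h := (Cfsg.Agent.S1070.result hq hK).1
    exact MulEquiv.isSimpleGroup e.symm
  have hne : ∃ g, ((ρ : _ →* _).comp e.symm.toMonoidHom) g ≠ 1 := by
    by_contra h
    push Not at h
    have htriv : ∀ g, ρ g = 1 := fun g => by simpa using h (e g)
    set v : Fin k → ℂ := Pi.single ⟨0, by omega⟩ 1 with hv
    let σ : Subrepresentation ρ := ⟨Submodule.span ℂ {v}, fun g w hw => by rw [htriv g]; exact hw⟩
    have h2 := finrank_span_singleton (K := ℂ) (v := v) (by simp [hv])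
    rcases eq_bot_or_eq_top σ with h' | h'
    · have h1 : Submodule.span ℂ ({v} : Set (Fin k → ℂ)) = ⊥ := congrArg Subrepresentation.toSubmodule h'
      rw [h1, finrank_bot] at h2
      omega
    · have h1 : Submodule.span ℂ ({v} : Set (Fin k → ℂ)) = ⊤ := congrArg Subrepresentation.toSubmodule h'
      rw [h1, finrank_top, finrank_fin_fun] at h2
      omega
  have hb := degree_bound f hf hK ((ρ : _ →* _).comp e.symm.toMonoidHom) (by omega) hsimple hne
  rw [finrank_fin_fun] at hb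
  have h3 : q ^ 3 ≤ q ^ 6 := Nat.pow_le_pow_right (by omega) (by norm_num)
  have hEz : ((q * (q ^ 6 - q ^ 3 + 1) * (q ^ 4 + 1) : ℕ) : ℤ) =
      (q : ℤ) * ((q : ℤ) ^ 6 - (q : ℤ) ^ 3 + 1) * ((q : ℤ) ^ 4 + 1) := by push_cast [h3]; ring
  have hq2z : (2 : ℤ) ≤ q := by exact_mod_cast hq2
  rcases hb with hb | hb
  · refine le_trans ?_ hb
    zify [h3]
    have h7 : (q : ℤ) ^ 7 * 2 ≤ (q : ℤ) ^ 8 := by
      rw [pow_succ (q : ℤ) 7]; exact mul_le_mul_of_nonneg_left hq2z (by positivity)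
    have h5 : (q : ℤ) ^ 5 * 2 ≤ (q : ℤ) ^ 6 := by
      rw [pow_succ (q : ℤ) 5]; exact mul_le_mul_of_nonneg_left hq2z (by positivity)
    have h67 : (q : ℤ) ^ 6 ≤ (q : ℤ) ^ 7 := pow_le_pow_right₀ (by linarith) (by norm_num)
    have h4 : (q : ℤ) ≤ (q : ℤ) ^ 4 := le_self_pow₀ (by linarith) (by norm_num)
    nlinarith
  · have hlow : q * (q ^ 6 - q ^ 3 + 1) * (q ^ 4 + 1) ≤ k + 2 := by
      refine le_trans ?_ (Nat.add_le_add_right hb 2)
      zify [h3, show 1 ≤ q by omega]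
      refine le_of_eq ?_
      ring
    have hord : k ∣ ordE6 q := by
      refine dvd_trans hdvd (dvd_trans (dvd_mul_left _ (Nat.gcd 3 (q + 1))) (dvd_of_eq ?_))
      rw [Cfsg.Agent.S1066.result hq hK]
      rfl
    by_contra hlt
    rcases (show k + 1 = q * (q ^ 6 - q ^ 3 + 1) * (q ^ 4 + 1) ∨ k + 2 = q * (q ^ 6 - q ^ 3 + 1) * (q ^ 4 + 1) by
      omega) with h | h
    · refine not_dvd_one hq2 ?_ hord
      rw [← hEz, ← h]; push_cast; ring
    · refine not_dvd_two hq ?_ hord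
      rw [← hEz, ← h]; push_cast; ring

end Cfsg.Agent.H75.MinDeg
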