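import Cfsg.Agent.H75.MinDeg.E6Cert
import Cfsg.Agent.H75.TwistGen.Finish
import Cfsg.Agent.H46.TwistOrder

/-!
# The lower bound for ²E₆(q)
-/

set_option autoImplicit false
set_option maxRecDepth 100000

namespace Cfsg.Agent.H75.MinDeg

open Cfsg.Lie Cfsg.Agent.H46 Cfsg.Agent.H75.TwistGen Module
open scoped Matrix MatrixGroups

variable {K : Type*} [Field K] [Fintype K] {q : ℕ} (f : K →+* K) (hf : ∀ x, f x = x ^ q)
  (hK : Fintype.card K = q ^ 2)

omit [Fintype K] in
/-- Class elements are fixed by the twisting map. -/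
theorem ey_fixed (hf2 : ∀ x, f (f x) = x) {r : ℕ} (hr : r < 72) {t : K} (ht : t ∈ eyP graphE6.S.π f r) :
    goodE6.twistHom okE6.check f (ey goodE6 graphE6.S.π graphE6.S.ε f r t) = ey goodE6 graphE6.S.π graphE6.S.ε f r t := by
  obtain ⟨h1, h2, h3, h4⟩ := sym_spec graphE6.S.π graphE6.S.ε symE6_ok (r := r) hr
  by_cases hm : graphE6.S.π r = r
  · simp only [ey, hm, if_true]
    rw [goodE6.twistHom_xg okE6.check f hr, hm, epsE6_fixed r hr hm, ht hm, Int.cast_one, one_mul]
  · have e : (graphE6.S.ε (graphE6.S.π r) : K) * f ((graphE6.S.ε r : K) * f t) = t := by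
      rw [map_mul, map_intCast, hf2, ← mul_assoc, ← Int.cast_mul, mul_comm (graphE6.S.ε (graphE6.S.π r)), h3, Int.cast_one, one_mul]
    simp only [ey, if_neg hm]
    rw [map_mul, goodE6.twistHom_xg okE6.check f hr, goodE6.twistHom_xg okE6.check f h1, h2, e]
    exact ((commute_nil0 goodE6 (h4 hm).1 _ _).eq).symm

omit [Fintype K] in
/-- Class elements lie in the twisted group. -/
theorem ey_mem (hf2 : ∀ x, f (f x) = x) {r : ℕ} (hr : r < 72) {t : K} (ht : t ∈ eyP graphE6.S.π f r) :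
    ey goodE6 graphE6.S.π graphE6.S.ε f r t ∈ (tdE6 f).G1 := by
  obtain ⟨j, hj1, hj2⟩ := wordsE6_ok r hr
  have hπ := (sym_spec graphE6.S.π graphE6.S.ε symE6_ok (r := r) hr).1
  set w := wordsE6.getD r []
  set n := nWord graphE6 goodE6 (F := K) w with hn
  have hnG : n ∈ (tdE6 f).G1 := nWord_mem_G1 okE6 coxE6 f w
  have hroot : ∀ s < 72, act w s ∈ (graphE6.orb j).map (fun k : Fin chevE6.rank => chevE6.simple k) →
      ∀ u : K, n * goodE6.xg s u * n⁻¹ ∈ (tdE6 f).X j := by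
    intro s hs hmem u
    obtain ⟨e, -, he⟩ := nWord_conj okE6 (F := K) w (⟨s, hs⟩ : Fin chevE6.nroots)
    rw [hn, show goodE6.xg (F := K) s u = goodE6.xg ((⟨s, hs⟩ : Fin chevE6.nroots) : ℕ) u from rfl, he]
    obtain ⟨k, hk, hkeq⟩ := List.mem_map.1 hmem
    have hm : twAct graphE6 goodE6 w ⟨s, hs⟩ ∈ (graphE6.orb j).map goodE6.simpleF := by
      refine List.mem_map.2 ⟨k, hk, Fin.ext ?_⟩
      rw [act, dif_pos (show s < chevE6.nroots from hs)] at hkeq
      exact hkeq
    exact le_iSup₂ (f := fun r (_ : r ∈ (graphE6.orb j).map goodE6.simpleF) =>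
      chevE6.rootSubgroup K (r : Fin chevE6.nroots))
      (twAct graphE6 goodE6 w ⟨s, hs⟩) hm (goodE6.rootSubgroup_mem_iff.2 ⟨_, rfl⟩)
  have hX : n * ey goodE6 graphE6.S.π graphE6.S.ε f r t * n⁻¹ ∈ (tdE6 f).X1 j := by
    refine ⟨?_, ?_⟩
    · by_cases hm : graphE6.S.π r = r
      · simp only [ey, hm, if_true]
        exact hroot r hr hj1 t
      · simp only [ey, if_neg hm]
        rw [← conj_mul]
        exact mul_mem (hroot r hr hj1 t) (hroot _ hπ hj2 _)
    · refine (tdE6 f).mem_fixed.2 ?_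
      have hn' : (tdE6 f).σ n = n := (tdE6 f).mem_fixed.1 ((tdE6 f).G1_le_fixed hnG)
      have he : (tdE6 f).σ (ey goodE6 graphE6.S.π graphE6.S.ε f r t) = ey goodE6 graphE6.S.π graphE6.S.ε f r t := ey_fixed f hf2 hr ht
      rw [map_mul, map_mul, map_inv, hn', he]
  obtain ⟨c, hc, e⟩ := (graphE6.mem_X1_iff okE6 coxE6 f).1 hX
  have hx : n * ey goodE6 graphE6.S.π graphE6.S.ε f r t * n⁻¹ ∈ (tdE6 f).G1 :=
    e ▸ mem_G1_of_gen okE6 coxE6 f ⟨j, c, hc, Or.inl rfl⟩
  simpa [mul_assoc] using mul_mem (mul_mem (inv_mem hnG) hx) hnG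

variable (ψ : AddChar K ℂ) (hf2 : ∀ x, f (f x) = x)

/-- The ambient system. -/
noncomputable abbrev sys₀ : Sys (GL chevE6.Idx K) K := eySys goodE6 graphE6.S.π graphE6.S.ε f symE6_ok hf2 71 ψ

open Classical in
/-- The system of class elements in the twisted group. -/
noncomputable def sysE6 : Sys ↥(tdE6 f).G1 K where
  el r t := if h : r < 72 ∧ t ∈ eyP graphE6.S.π f r then ⟨ey goodE6 graphE6.S.π graphE6.S.ε f r t, ey_mem f hf2 h.1 h.2⟩ else 1
  P := eyP graphE6.S.π f
  el_add r t ht u hu := by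
    by_cases hr : r < 72
    · rw [dif_pos ⟨hr, add_mem ht hu⟩, dif_pos ⟨hr, ht⟩, dif_pos ⟨hr, hu⟩]
      refine Subtype.ext ?_
      have h := (sys₀ f ψ hf2).el_add r t ht u hu
      simp only [eySys, if_pos (show r < chevE6.nroots from hr)] at h
      exact h
    · rw [dif_neg fun h => hr h.1, dif_neg fun h => hr h.1, dif_neg fun h => hr h.1, mul_one]
  one_mem _ _ := map_one f
  ψ := ψ
  α := 71

omit [Fintype K] in
theorem sysE6_coe (r : ℕ) {t : K} (ht : t ∈ eyP graphE6.S.π f r) :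
    ((sysE6 f ψ hf2).el r t : GL chevE6.Idx K) = (sys₀ f ψ hf2).el r t := by
  classical
  simp only [sysE6, eySys]
  by_cases hr : r < 72
  · rw [dif_pos ⟨hr, ht⟩, if_pos (show r < chevE6.nroots from hr)]
  · rw [dif_neg fun h => hr h.1, if_neg (show ¬ r < chevE6.nroots from hr)]
    rfl

omit [Fintype K] in
theorem sysE6_sw (hnt : ∃ x, f x ≠ x) (a b : ℕ) (T : List ℕ) (h : tabE6.sw a b = some T) :
    (sysE6 f ψ hf2).Sw a b T :=
  Sys.Sw.of_map (S' := sys₀ f ψ hf2) (ι := (tdE6 f).G1.subtype) Subtype.val_injective rfl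
    (fun r _ ht => sysE6_coe f ψ hf2 r ht) (sw_spec goodE6 graphE6.S.π graphE6.S.ε f symE6_ok hf2 71 ψ hnt h)

omit [Fintype K] in
theorem sysE6_exact (hnt : ∃ x, f x ≠ x) (a b k : ℕ) (h : tabE6.exact a b = some k) :
    (sysE6 f ψ hf2).Exact a b k :=
  Sys.Exact.of_map (S' := sys₀ f ψ hf2) (ι := (tdE6 f).G1.subtype) Subtype.val_injective rfl
    (fun r _ ht => sysE6_coe f ψ hf2 r ht) (exact_spec goodE6 graphE6.S.π graphE6.S.ε f symE6_ok hf2 71 ψ hnt h)

/-- The conjugator of a word. -/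
noncomputable def conjE6 (w : List (Fin 4)) : ↥(tdE6 f).G1 :=
  ⟨nWord graphE6 goodE6 w, nWord_mem_G1 okE6 coxE6 f w⟩

/-- The certificate of a term. -/
noncomputable def certE6 (R : Row) : Sys.Cert ↥(tdE6 f).G1 := ⟨R.L, R.steps, R.M, R.T, conjE6 f R.w⟩

omit [Fintype K] in
theorem certE6_valid (hnt : ∃ x, f x ≠ x) {R : Row} (hR : R ∈ rowsE6) : (sysE6 f ψ hf2).Valid (certE6 f R) := by
  have h := rowsE6_valid R hR
  simp only [Bool.and_eq_true, decide_eq_true_eq] at h
  exact ⟨tabE6.lagB_spec (sysE6_sw f ψ hf2 hnt) (sysE6_exact f ψ hf2 hnt) _ h.1.1.1,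
    tabE6.stepsB_spec (sysE6_sw f ψ hf2 hnt) (sysE6_exact f ψ hf2 hnt) _ _ _ h.1.1.2,
    tabE6.shiftB_spec (sysE6_sw f ψ hf2 hnt) (sysE6_exact f ψ hf2 hnt) _ _ h.1.2, Tab.subB_spec h.2⟩

/-- The weight of a class. -/
def wt (m : ℕ) : ℕ := if graphE6.S.π m = m then 1 else 2

/-- The total weight of translations. -/
def wtM (M : List (ℕ × ℕ)) : ℕ := (M.map fun p => wt p.2).sum

theorem wtM_rows : rowsE6.map (fun R => wtM R.M) = [10, 9, 8, 6, 5, 4, 4, 3, 2, 1, 0, 0] ∧
    wtM lag0 = 10 ∧ wtM lag1 = 10 := by decide +kernel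

include hf hK

theorem card_fixed : Nat.card {t : K // f t = t} = q := by
  have := card_period f hf hK two_pos 1 (by norm_num)
  simpa using this

theorem card_eyP (m : ℕ) : Nat.card ↥(eyP graphE6.S.π f m) = q ^ wt m := by
  by_cases hm : graphE6.S.π m = m
  · rw [wt, if_pos hm, pow_one, ← card_fixed f hf hK]
    exact Nat.card_congr (Equiv.subtypeEquivRight fun t => by simp [mem_eyP, hm])
  · rw [wt, if_neg hm, ← hK, ← Nat.card_eq_fintype_card]
    exact Nat.card_congr (Equiv.subtypeUnivEquiv fun t => by simp [mem_eyP, hm])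

theorem size_eq (M : List (ℕ × ℕ)) : (sysE6 f ψ hf2).size M = q ^ wtM M := by
  induction M with
  | nil => simp [Sys.size, wtM]
  | cons p M ih =>
    simp only [Sys.size, wtM, List.map_cons, List.prod_cons, List.sum_cons, pow_add] at ih ⊢
    rw [ih, show (sysE6 f ψ hf2).P p.2 = eyP graphE6.S.π f p.2 from rfl, card_eyP f hf hK p.2]

theorem exists_not_fixed (hq : 1 < q) : ∃ x, f x ≠ x := by
  by_contra h
  push Not at h
  have e := card_fixed f hf hK
  rw [Nat.card_congr (Equiv.subtypeUnivEquiv h), Nat.card_eq_fintype_card, hK] at e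
  nlinarith

variable {V : Type*} [AddCommGroup V] [Module ℂ V] [FiniteDimensional ℂ V]
  (ρ : ↥(tdE6 f).G1 →* End ℂ V)

/-- The lower bound `exact - 2`, unless the degree is at least `q¹¹`. -/
theorem degree_bound (hq : 1 < q) (hsimple : IsSimpleGroup ↥(tdE6 f).G1) (hρ : ∃ g, ρ g ≠ 1) :
    q ^ 11 ≤ finrank ℂ V ∨
      (q - 1) * (q ^ 10 + q ^ 9 + q ^ 8 + q ^ 6 + q ^ 5 + q ^ 4 + q ^ 4 + q ^ 3 + q ^ 2 + q + 1 + 1) ≤ finrank ℂ V := by
  classical
  obtain ⟨ψ, hψ⟩ := (AddChar.exists_apply_ne_zero (α := K) (a := 1)).2 one_ne_zero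
  have hf2 : ∀ x, f (f x) = x := fun x => by simpa using period_E6 f hf hK x
  have hnt := exists_not_fixed f hf hK hq
  set S := sysE6 f ψ hf2 with hS
  have hπ71 : graphE6.S.π 71 = 71 := by decide +kernel
  have hPα : ∀ t : K, t ∈ S.P S.α ↔ f t = t := fun t =>
    ⟨fun h => h hπ71, fun h _ => h⟩
  haveI : Fintype ↥(S.P S.α) := Fintype.ofFinite _
  -- the characters
  let ι := {c : K // f c = c ∧ c ≠ 0}
  have hι : Fintype.card ι + 1 = q := by
    rw [← card_fixed f hf hK, Nat.card_eq_fintype_card,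
      Fintype.card_subtype, Fintype.card_subtype,
      ← Finset.card_erase_add_one (a := (0 : K)) (s := Finset.univ.filter fun t => f t = t) (by simp)]
    congr 2
    ext c
    simp [and_comm]
  let x : ι → K := fun c => c.1
  have hx : ∀ i, S.Nt (x i) := fun i =>
    ⟨(i.1)⁻¹, (hPα _).2 (by rw [map_inv₀, i.2.1]), by show ψ (i.1 * i.1⁻¹) ≠ 1; rwa [mul_inv_cancel₀ i.2.2]⟩
  have hsep : Function.Injective fun i => fun t : ↥(S.P S.α) => S.ψ (x i * (t : K)) := by
    intro i j e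
    by_contra hne
    have hd : i.1 - j.1 ≠ 0 := sub_ne_zero.2 fun h => hne (Subtype.ext h)
    have := congrFun e ⟨(i.1 - j.1)⁻¹, (hPα _).2 (by rw [map_inv₀, map_sub, i.2.1, j.2.1])⟩
    change ψ (i.1 * (i.1 - j.1)⁻¹) = ψ (j.1 * (i.1 - j.1)⁻¹) at this
    rw [show i.1 * (i.1 - j.1)⁻¹ = j.1 * (i.1 - j.1)⁻¹ + 1 by field_simp; ring, AddChar.map_add_eq_mul] at this
    exact hψ ((mul_eq_left₀ (AddChar.val_isUnit ψ _).ne_zero).1 this)
  -- one non-trivial eigenvector of the centre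
  have hev1 : ∃ c : ι, ∃ v, v ≠ 0 ∧ v ∈ S.Ev ρ (x c) := by
    have hne : ρ (S.el 71 1) ≠ 1 := by
      intro e
      have := hsimple
      rcases (MonoidHom.normal_ker ρ).eq_bot_or_eq_top with hb | ht
      · have h1 : S.el 71 1 = 1 := (Subgroup.eq_bot_iff_forall _).1 hb _ e
        have h2 := congrArg Subtype.val h1
        rw [hS, sysE6_coe f ψ hf2 71 (fun _ => map_one f)] at h2
        simp only [eySys, show (71 : ℕ) < chevE6.nroots by decide +kernel, if_true, ey, hπ71,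
          OneMemClass.coe_one] at h2
        rw [goodE6.xg_eq_one_iff (by decide +kernel)] at h2
        exact one_ne_zero h2
      · obtain ⟨g, hg⟩ := hρ
        exact hg (ht ▸ Subgroup.mem_top g : g ∈ ρ.ker)
    obtain ⟨v0, hv0⟩ : ∃ v, ρ (S.el 71 1) v ≠ v := by
      by_contra h
      push Not at h
      exact hne (LinearMap.ext h)
    let O : ↥(S.P S.α) → End ℂ V := fun t => ρ (S.el S.α t)
    have h0 : O 0 = 1 := by simp [O, S.el_zero]
    have hadd : ∀ a b, O (a + b) = O a * O b := fun a b => by simp [O, S.el_add S.α _ a.2 _ b.2]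
    have hsum : ∀ a, a ≠ 0 → ∑ b : ↥(S.P S.α), S.chA (b : K) a = 0 := by
      intro a ha
      let c : AddChar ↥(S.P S.α) ℂ :=
        { toFun := fun b => S.ψ ((b : K) * a)
          map_zero_eq_one' := by simp [AddChar.map_zero_eq_one]
          map_add_eq_mul' := fun b b' => by rw [AddSubgroup.coe_add, add_mul, AddChar.map_add_eq_mul] }
      refine (AddChar.sum_eq_zero_iff_ne_zero (ψ := c)).2 fun e => hψ ?_
      have ha' : (a : K) ≠ 0 := fun h => ha (Subtype.ext h)
      have := DFunLike.congr_fun e ⟨(a : K)⁻¹, (hPα _).2 (by rw [map_inv₀, (hPα _).1 a.2])⟩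
      simpa [c, inv_mul_cancel₀ ha', show S.ψ = ψ from rfl] using this
    obtain ⟨b, w, hw, hweig, hpres⟩ := exists_eigen_ne_zero O h0 hadd (fun b : ↥(S.P S.α) => S.chA (b : K)) hsum
      (sub_ne_zero.2 hv0)
    have hb : (b : K) ≠ 0 := by
      intro hb0
      have hcomm : ∀ a, Commute (∑ t, O t) (O a) := fun a =>
        Commute.sum_left _ _ _ fun t _ => by rw [commute_iff_eq, ← hadd, ← hadd, add_comm]
      have hfix : ∀ y, (∑ t, O t) (O ⟨1, (hPα _).2 (map_one f)⟩ y) = (∑ t, O t) y := fun y => by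
        rw [LinearMap.sum_apply, LinearMap.sum_apply]
        refine Fintype.sum_equiv (Equiv.addRight ⟨1, (hPα _).2 (map_one f)⟩) _ _ fun t => ?_
        rw [Equiv.coe_addRight, hadd, Module.End.mul_apply]
      have hkill := hpres (∑ t, O t) 0 hcomm (by
        rw [zero_smul, map_sub]
        exact sub_eq_zero.2 (hfix v0))
      rw [zero_smul, LinearMap.sum_apply, Finset.sum_congr rfl fun t _ => show O t w = w by
        rw [mem_eigSub.1 hweig t]; simp [Sys.chA, hb0, AddChar.map_zero_eq_one],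
        Finset.sum_const, ← Nat.cast_smul_eq_nsmul ℂ, smul_eq_zero] at hkill
      exact hw (hkill.resolve_left (Nat.cast_ne_zero.2 (Finset.card_ne_zero_of_mem (Finset.mem_univ (0 : ↥(S.P S.α))))))
    exact ⟨⟨b, (hPα _).1 b.2, hb⟩, w, hw, (S.mem_Ev ρ).2 fun t ht => mem_eigSub.1 hweig ⟨t, ht⟩⟩
  -- all of them, by the torus
  have hev : ∀ i, ∃ v, v ≠ 0 ∧ v ∈ S.Ev ρ (x i) := by
    obtain ⟨c0, v, hv, hv'⟩ := hev1
    intro i
    set z : K := i.1 / c0.1 with hz
    have hz0 : z ≠ 0 := div_ne_zero i.2.2 c0.2.2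
    have hfz : f z = z := by rw [hz, map_div₀, i.2.1, c0.2.1]
    set hh := graphE6.orbProd 3 fun k : Fin chevE6.rank => goodE6.hg (chevE6.simple k) z with hhdef
    have hhG : hh ∈ (tdE6 f).G1 := (tdE6 f).N0_le_G1 ((tdE6 f).H0_le_N0
      (graphE6.orb_hg_mem_fixTorus okE6 f 3 (c := fun _ => z) (fun _ _ => hfz.symm) fun _ _ => hz0))
    have hact : ∀ t : K, hh * goodE6.xg 71 t = goodE6.xg 71 (z * t) * hh := by
      intro t
      have e := hg_prod_mul_xg (G := goodE6) (show 71 < chevE6.nroots by decide +kernel) (fun _ => z)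
        (graphE6.orb 3) (fun _ _ => hz0) t
      rw [orbE6.2.2.2] at e
      simp only [List.map_cons, List.map_nil, List.prod_cons, List.prod_nil, mul_one,
        show chevE6.cartan 1 71 = 1 by decide +kernel, zpow_one] at e
      rw [hhdef, GraphData.orbProd, orbE6.2.2.2]
      simpa using e
    refine ⟨ρ (⟨hh, hhG⟩⁻¹ : ↥(tdE6 f).G1) v, fun h => hv ?_, (S.mem_Ev ρ).2 fun t ht => ?_⟩
    · rw [← Sys.map_apply_inv ρ ⟨hh, hhG⟩ v, h, map_zero]
    · have htf := (hPα t).1 ht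
      have hzt : z * t ∈ S.P S.α := (hPα _).2 (by rw [map_mul, hfz, htf])
      have e : S.el S.α t * ⟨hh, hhG⟩⁻¹ = ⟨hh, hhG⟩⁻¹ * S.el S.α (z * t) := by
        rw [eq_inv_mul_iff_mul_eq, ← mul_assoc, mul_inv_eq_iff_eq_mul]
        refine Subtype.ext ?_
        rw [Subgroup.coe_mul, Subgroup.coe_mul, hS, sysE6_coe f ψ hf2 _ ht, sysE6_coe f ψ hf2 _ hzt]
        simp only [eySys, show (sysE6 f ψ hf2).α = 71 from rfl, show (71 : ℕ) < chevE6.nroots by decide +kernel,
          if_true, ey, hπ71]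
        exact hact t
      rw [← Sys.map_mul_apply, e, Sys.map_mul_apply, (S.mem_Ev ρ).1 hv' _ hzt, map_smul]
      congr 2
      show c0.1 * (z * t) = i.1 * t
      rw [hz, ← mul_assoc, mul_div_cancel₀ _ c0.2.2]
  -- multiplicity one
  by_cases hline : ∀ L ∈ [lag0, lag1], ∀ i, finrank ℂ (S.line ρ L (x i)) ≤ 1
  swap
  · left
    push Not at hline
    obtain ⟨L, hL, i₀, hi₀⟩ := hline
    have hLag : S.GoodShift L [] ∧ S.GoodLag L ∧ wtM L = 10 := by
      simp only [List.mem_cons, List.not_mem_nil, or_false] at hL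
      rcases hL with rfl | rfl
      · exact ⟨tabE6.shiftB_spec (sysE6_sw f ψ hf2 hnt) (sysE6_exact f ψ hf2 hnt) _ _ lagsE6_valid.1,
          (certE6_valid f ψ hf2 hnt (R := rowsE6.getD 0 ⟨0, [], [], [], [], []⟩) List.mem_cons_self).1,
          wtM_rows.2.1⟩
      · exact ⟨tabE6.shiftB_spec (sysE6_sw f ψ hf2 hnt) (sysE6_exact f ψ hf2 hnt) _ _ lagsE6_valid.2,
          (certE6_valid f ψ hf2 hnt (R := rowsE6.getD 11 ⟨0, [], [], [], [], []⟩)
            (by simp [rowsE6])).1,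
          wtM_rows.2.2⟩
    have h1 : ∀ i, 1 ≤ finrank ℂ (S.line ρ L (x i)) := by
      intro i
      obtain ⟨v0, hv0, hv0'⟩ := hev i
      obtain ⟨v, hv, hv'⟩ := S.exists_fixed ρ (hx i) hv0 hv0' L hLag.2.1
      exact Submodule.one_le_finrank_iff.2 fun e => hv ((Submodule.eq_bot_iff _).1 e v hv')
    have hsum := S.sum_line_le ρ x hx hsep hLag.1
    rw [size_eq f hf hK ψ hf2, hLag.2.2] at hsum
    have hlt : Fintype.card ι < ∑ i, finrank ℂ (S.line ρ L (x i)) := by
      rw [← Finset.card_univ, Finset.card_eq_sum_ones]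
      exact Finset.sum_lt_sum (fun i _ => h1 i) ⟨i₀, Finset.mem_univ _, hi₀⟩
    calc q ^ 11 = q ^ 10 * q := by ring
      _ ≤ _ := le_trans (Nat.mul_le_mul_left _ (by omega)) hsum
  right
  -- the terms
  let row : ℕ → Row := fun i => rowsE6.getD i ⟨0, [], [], [], [], []⟩
  have hrow : ∀ i < 12, row i ∈ rowsE6 := fun i hi => by
    have hlen : rowsE6.length = 12 := by decide +kernel
    simp only [row, List.getD_eq_getElem _ _ (hlen.symm ▸ hi)]
    exact List.getElem_mem _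
  have hk := S.sum_le_finrank ρ x hx hsep hev 12 (fun i => certE6 f (row i))
    (fun i hi => certE6_valid f ψ hf2 hnt (hrow i hi)) (fun i hi a => ?_) (fun j i hji hi t ht => ?_)
  · refine le_trans (le_of_eq ?_) hk
    have hsz : ∀ i, S.size (certE6 f (row i)).M = q ^ wtM (row i).M := fun i => size_eq f hf hK ψ hf2 _
    have hw : ∀ i < 12, wtM (row i).M = [10, 9, 8, 6, 5, 4, 4, 3, 2, 1, 0, 0].getD i 0 := by
      simp only [row]; decide +kernel
    rw [Finset.sum_congr rfl fun i hi => by rw [hsz, hw i (Finset.mem_range.1 hi)]]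
    simp only [Finset.sum_range_succ, Finset.sum_range_zero, List.getD_cons_succ, List.getD_cons_zero]
    rw [show q - 1 = Fintype.card ι by omega]
    ring
  · refine hline _ ?_ a
    rcases rowsE6_lag _ (hrow i hi) with h | h <;> simp [certE6, h]
  · obtain ⟨hj72, hjπ, hjact⟩ := rowsE6_act _ (hrow j (by omega))
    obtain ⟨hmemT, hπc⟩ := rowsE6_prior i hi j hji
    obtain ⟨e, he, hE⟩ := nWord_conj okE6 (F := K) (row j).w (⟨(row j).r, hj72⟩ : Fin chevE6.nroots)
    obtain ⟨e', he', hE'⟩ := nWord_conj okE6 (F := K) (row i).w (⟨(row j).r, hj72⟩ : Fin chevE6.nroots)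
    have hee : e * e = 1 := by rcases he with rfl | rfl <;> simp
    rw [act, dif_pos (show (row j).r < chevE6.nroots from hj72)] at hjact
    set c := (twAct graphE6 goodE6 (row i).w ⟨(row j).r, hj72⟩ : Fin chevE6.nroots) with hc
    have hcv : act (row i).w (row j).r = c.val := by rw [act, dif_pos (show (row j).r < chevE6.nroots from hj72)]
    change act (row i).w (row j).r ∈ (row i).T at hmemT
    change graphE6.S.π (act (row i).w (row j).r) = act (row i).w (row j).r at hπc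
    rw [hcv] at hmemT hπc
    have htf := (hPα t).1 ht
    have hv : e' * (e * t) ∈ S.P c.val := fun _ => by
      rcases he with rfl | rfl <;> rcases he' with rfl | rfl <;> simp [htf]
    have key : (certE6 f (row i)).n * ((certE6 f (row j)).n⁻¹ * S.el S.α t * (certE6 f (row j)).n) *
        (certE6 f (row i)).n⁻¹ = S.el c.val (e' * (e * t)) := by
      refine Subtype.ext ?_
      simp only [certE6, conjE6, Subgroup.coe_mul, InvMemClass.coe_inv]
      rw [hS, sysE6_coe f ψ hf2 _ ht, sysE6_coe f ψ hf2 _ hv]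
      simp only [show (sysE6 f ψ hf2).α = 71 from rfl, show S.α = 71 from rfl, eySys, show (71 : ℕ) < chevE6.nroots by decide +kernel,
        show c.val < chevE6.nroots from c.isLt, if_true, ey, hπ71, hπc]
      rw [show goodE6.xg (F := K) 71 t = nWord graphE6 goodE6 (row j).w * goodE6.xg (row j).r (e * t) *
          (nWord graphE6 goodE6 (row j).w)⁻¹ by
        rw [hE (e * t), hjact, ← mul_assoc, hee, one_mul]]
      rw [show ∀ a b y : GL chevE6.Idx K, a * (b⁻¹ * (b * y * b⁻¹) * b) * a⁻¹ = a * y * a⁻¹ from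
        fun a b y => by group]
      exact hE' _
    rw [key]
    exact S.el_mem_Hs hmemT hv

end Cfsg.Agent.H75.MinDeg
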