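import Cfsg.Agent.H75.MinDeg.Space
import Mathlib.LinearAlgebra.Trace

/-!
# Lines fixed by a Lagrangian and their translates

An abstract group with commutator relations between parametrised root families. A joint eigenline of the centre `α`
and a Lagrangian is fixed by commutators of elements that preserve it; translates by partners of the Lagrangian are
linearly independent.
-/

set_option autoImplicit false

namespace Cfsg.Agent.H75.MinDeg

open Module

/-- A group with parametrised families of elements and a character of the parameters. -/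
structure Sys (G : Type*) [Group G] (K : Type*) [Field K] where
  /-- the elements -/
  el : ℕ → K → G
  /-- the parameters -/
  P : ℕ → AddSubgroup K
  el_add : ∀ r, ∀ t ∈ P r, ∀ u ∈ P r, el r (t + u) = el r t * el r u
  one_mem : ∀ r, (1 : K) ∈ P r
  /-- the character -/
  ψ : AddChar K ℂ
  /-- the central family -/
  α : ℕ

namespace Sys

variable {G : Type*} [Group G] {K : Type*} [Field K] (S : Sys G K)

theorem el_zero (r : ℕ) : S.el r 0 = 1 := by
  have := S.el_add r 0 (zero_mem _) 0 (zero_mem _)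
  rwa [add_zero, right_eq_mul] at this

/-- The subgroup of some families. -/
def Hs (T : List ℕ) : Subgroup G := Subgroup.closure {g | ∃ r ∈ T, ∃ t ∈ S.P r, g = S.el r t}

theorem el_mem_Hs {T : List ℕ} {r : ℕ} (hr : r ∈ T) {t : K} (ht : t ∈ S.P r) : S.el r t ∈ S.Hs T :=
  Subgroup.subset_closure ⟨r, hr, t, ht, rfl⟩

theorem Hs_mono {T T' : List ℕ} (h : T ⊆ T') : S.Hs T ≤ S.Hs T' :=
  Subgroup.closure_mono fun g ⟨r, hr, t, ht, e⟩ => ⟨r, h hr, t, ht, e⟩

theorem Hs_nil : S.Hs [] = ⊥ := by simp [Hs]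

/-- The elements of `b` move past those of `a` with the given targets. -/
def Sw (a b : ℕ) (T : List ℕ) : Prop :=
  ∀ t ∈ S.P a, ∀ u ∈ S.P b, ∃ h ∈ S.Hs T, S.el b u * S.el a t = S.el a t * S.el b u * h

theorem Sw.commute {a b : ℕ} (h : S.Sw a b []) {t u : K} (ht : t ∈ S.P a) (hu : u ∈ S.P b) :
    Commute (S.el b u) (S.el a t) := by
  obtain ⟨x, hx, e⟩ := h t ht u hu
  rw [S.Hs_nil, Subgroup.mem_bot] at hx
  rwa [hx, mul_one] at e

/-- The only target is `k`, bijectively in each variable. -/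
def Exact (a b k : ℕ) : Prop :=
  ∃ φ : K → K → K, (∀ t ∈ S.P a, ∀ u ∈ S.P b, φ t u ∈ S.P k) ∧
    (∀ t t' u, φ (t + t') u = φ t u + φ t' u) ∧ (∀ t u u', φ t (u + u') = φ t u + φ t u') ∧
    (∀ t ∈ S.P a, t ≠ 0 → ∀ y ∈ S.P k, ∃ u ∈ S.P b, φ t u = y) ∧
    (∀ u ∈ S.P b, u ≠ 0 → ∀ y ∈ S.P k, ∃ t ∈ S.P a, φ t u = y) ∧
    ∀ t ∈ S.P a, ∀ u ∈ S.P b, S.el b u * S.el a t = S.el a t * S.el b u * S.el k (φ t u)

variable {V : Type*} [AddCommGroup V] [Module ℂ V] (ρ : G →* End ℂ V)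

theorem map_inv_apply (g : G) (v : V) : ρ g⁻¹ (ρ g v) = v := by
  rw [← Module.End.mul_apply, ← map_mul, inv_mul_cancel, map_one, Module.End.one_apply]

theorem map_apply_inv (g : G) (v : V) : ρ g (ρ g⁻¹ v) = v := by
  rw [← Module.End.mul_apply, ← map_mul, mul_inv_cancel, map_one, Module.End.one_apply]

theorem map_mul_apply (g h : G) (v : V) : ρ (g * h) v = ρ g (ρ h v) := by
  rw [map_mul, Module.End.mul_apply]

/-- The elements fixing a vector. -/
def fixer (v : V) : Subgroup G where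
  carrier := {g | ρ g v = v}
  one_mem' := by simp
  mul_mem' := fun {a b} ha hb => by
    show ρ (a * b) v = v
    rw [map_mul, Module.End.mul_apply, show ρ b v = v from hb]
    exact ha
  inv_mem' := fun {a} ha => by
    show ρ a⁻¹ v = v
    conv_lhs => rw [← show ρ a v = v from ha]
    exact map_inv_apply ρ a v

/-- The vectors fixed by some families. -/
def Fix (T : List ℕ) : Submodule ℂ V := eigSub (fun g : ↥(S.Hs T) => ρ g) fun _ => 1

theorem mem_Fix {T : List ℕ} {v : V} : v ∈ S.Fix ρ T ↔ ∀ g ∈ S.Hs T, ρ g v = v := by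
  simp [Fix, mem_eigSub]

theorem mem_Fix_of_gen {T : List ℕ} {v : V} (h : ∀ r ∈ T, ∀ t ∈ S.P r, ρ (S.el r t) v = v) : v ∈ S.Fix ρ T := by
  rw [mem_Fix]
  have : S.Hs T ≤ fixer ρ v := (Subgroup.closure_le _).2 fun g ⟨r, hr, t, ht, e⟩ => e ▸ h r hr t ht
  exact fun g hg => this hg

theorem Fix_el {T : List ℕ} {v : V} (hv : v ∈ S.Fix ρ T) {r : ℕ} (hr : r ∈ T) {t : K} (ht : t ∈ S.P r) :
    ρ (S.el r t) v = v := (S.mem_Fix ρ).1 hv _ (S.el_mem_Hs hr ht)

theorem Fix_mono {T T' : List ℕ} (h : T ⊆ T') : S.Fix ρ T' ≤ S.Fix ρ T := fun v hv =>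
  (S.mem_Fix ρ).2 fun g hg => (S.mem_Fix ρ).1 hv g (S.Hs_mono h hg)

/-- The eigenvectors of `α` with character `χ`. -/
def Ev (χ : K) : Submodule ℂ V :=
  eigSub (fun t : ↥(S.P S.α) => ρ (S.el S.α t)) fun t => S.ψ (χ * (t : K))

theorem mem_Ev {χ : K} {v : V} :
    v ∈ S.Ev ρ χ ↔ ∀ t ∈ S.P S.α, ρ (S.el S.α t) v = S.ψ (χ * t) • v := by
  simp [Ev, mem_eigSub]

/-- `χ` is non-trivial on the centre. -/
def Nt (χ : K) : Prop := ∃ y ∈ S.P S.α, S.ψ (χ * y) ≠ 1

/-- The character of the second variable of a pairing. -/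
def chR (χ : K) (φ : K → K → K) (hφ : ∀ t u u', φ t (u + u') = φ t u + φ t u') (l : ℕ) (t : K) :
    AddChar ↥(S.P l) ℂ where
  toFun u := S.ψ (χ * φ t u)
  map_zero_eq_one' := by
    have h := hφ t 0 0
    rw [add_zero, left_eq_add] at h
    simp [h, AddChar.map_zero_eq_one]
  map_add_eq_mul' u u' := by
    rw [AddSubgroup.coe_add, hφ, mul_add, AddChar.map_add_eq_mul]

theorem Exact.chR_injective {χ : K} (hχ : S.Nt χ) {l m : ℕ} {φ : K → K → K}
    (hL : ∀ t t' u, φ (t + t') u = φ t u + φ t' u) (hR : ∀ t u u', φ t (u + u') = φ t u + φ t u')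
    (hsurj : ∀ t ∈ S.P m, t ≠ 0 → ∀ y ∈ S.P S.α, ∃ u ∈ S.P l, φ t u = y) :
    Function.Injective fun t : ↥(S.P m) => S.chR χ φ hR l t := by
  intro t t' e
  by_contra hne
  obtain ⟨y, hy, hy1⟩ := hχ
  obtain ⟨u, hu, hu'⟩ := hsurj _ (sub_mem t.2 t'.2) (sub_ne_zero.2 fun h => hne (Subtype.ext h)) y hy
  refine hy1 ?_
  rw [← hu']
  have e1 : S.ψ (χ * φ t u) = S.ψ (χ * φ t' u) := DFunLike.congr_fun e ⟨u, hu⟩
  have e2 : φ (t - t' : K) u + φ t' u = φ t u := by rw [← hL, sub_add_cancel]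
  rw [← e2, mul_add, AddChar.map_add_eq_mul] at e1
  exact (mul_eq_right₀ (AddChar.val_isUnit S.ψ _).ne_zero).1 e1

/-- The conditions on translations keeping the families `T` fixed. -/
def GoodShift : List (ℕ × ℕ) → List ℕ → Prop
  | [], _ => True
  | p :: M, T => S.Exact p.2 p.1 S.α ∧ S.Sw p.2 S.α [] ∧ (∀ s ∈ T, ∃ T' ⊆ T, S.Sw p.2 s T') ∧
      GoodShift M (p.1 :: T)

/-- The number of translations. -/
noncomputable def size (M : List (ℕ × ℕ)) : ℕ := (M.map fun p => Nat.card ↥(S.P p.2)).prod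

variable [Finite K] [FiniteDimensional ℂ V]

/-- Translates of fixed vectors are independent. -/
theorem exists_shift {χ : K} (hχ : S.Nt χ) : ∀ (M : List (ℕ × ℕ)) (T : List ℕ), S.GoodShift M T →
    ∀ W : Submodule ℂ V, W ≤ S.Ev ρ χ ⊓ S.Fix ρ (M.map Prod.fst ++ T) →
      ∃ U : Submodule ℂ V, U ≤ S.Ev ρ χ ⊓ S.Fix ρ T ∧ S.size M * finrank ℂ W ≤ finrank ℂ U := by
  intro M
  induction M with
  | nil => exact fun T _ W hW => ⟨W, by simpa using hW, by simp [size]⟩
  | cons p M ih =>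
    rintro T ⟨hE, hα, hT, hM⟩ W hW
    obtain ⟨U', hU', hdim⟩ := ih (p.1 :: T) hM W (hW.trans (inf_le_inf_left _ (S.Fix_mono ρ (by
      intro x hx
      simp only [List.map_cons, List.cons_append, List.mem_cons, List.mem_append] at hx ⊢
      tauto))))
    obtain ⟨φ, hmem, hL, hR, hsurj, -, heq⟩ := hE
    haveI := Fintype.ofFinite K
    classical
    let mv : ↥(S.P p.2) → End ℂ V := fun t => ρ (S.el p.2 t)
    refine ⟨⨆ t, U'.map (mv t), iSup_le fun t => ?_, ?_⟩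
    · rintro x ⟨w, hw, rfl⟩
      obtain ⟨hw1, hw2⟩ := Submodule.mem_inf.1 (hU' hw)
      refine Submodule.mem_inf.2 ⟨(S.mem_Ev ρ).2 fun a ha => ?_, S.mem_Fix_of_gen ρ fun s hs u hu => ?_⟩
      · rw [← map_mul_apply, (Sw.commute S hα t.2 ha).eq, map_mul_apply, (S.mem_Ev ρ).1 hw1 a ha, map_smul]
      · obtain ⟨T', hT', hsw⟩ := hT s hs
        obtain ⟨g, hg, e⟩ := hsw t t.2 u hu
        rw [← map_mul_apply, e, map_mul_apply, map_mul_apply,
          (S.mem_Fix ρ).1 hw2 g (S.Hs_mono (List.subset_cons_of_subset _ hT') hg),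
          S.Fix_el ρ hw2 (List.mem_cons_of_mem _ hs) hu]
    · calc S.size (p :: M) * finrank ℂ W = Fintype.card ↥(S.P p.2) * (S.size M * finrank ℂ W) := by
            simp [size, mul_assoc, Nat.card_eq_fintype_card]
        _ ≤ Fintype.card ↥(S.P p.2) * finrank ℂ U' := Nat.mul_le_mul_left _ hdim
        _ = ∑ _t : ↥(S.P p.2), finrank ℂ U' := by simp
        _ ≤ _ := by
          refine le_finrank_iSup_eigen (fun u : ↥(S.P p.1) => ρ (S.el p.1 u))
            (fun t : ↥(S.P p.2) => S.chR χ φ hR p.1 t) (Exact.chR_injective S hχ hL hR hsurj) _ (fun t => ?_) _ fun t => ?_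
          · rintro x ⟨w, hw, rfl⟩
            obtain ⟨hw1, hw2⟩ := Submodule.mem_inf.1 (hU' hw)
            rw [mem_eigSub]
            intro u
            rw [← map_mul_apply, heq t t.2 u u.2, map_mul_apply, map_mul_apply,
              (S.mem_Ev ρ).1 hw1 _ (hmem t t.2 u u.2), map_smul, map_smul,
              S.Fix_el ρ hw2 List.mem_cons_self u.2]
            rfl
          · refine le_of_eq (LinearEquiv.finrank_eq (Submodule.equivMapOfInjective _ ?_ U'))
            exact Function.LeftInverse.injective (g := ρ (S.el p.2 t)⁻¹) (map_inv_apply ρ _)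

/-- The conditions on a Lagrangian with its partners. -/
def GoodLag : List (ℕ × ℕ) → Prop
  | [] => True
  | p :: L => S.Exact p.2 p.1 S.α ∧ S.Sw p.2 S.α [] ∧ S.Sw p.1 S.α [] ∧
      (∀ q ∈ L, S.Sw p.2 q.1 [] ∧ S.Sw p.1 q.1 []) ∧ GoodLag L

omit [FiniteDimensional ℂ V] in
/-- A centre eigenvector gives one fixed by a Lagrangian. -/
theorem exists_fixed {χ : K} (hχ : S.Nt χ) {v : V} (hv : v ≠ 0) (hv' : v ∈ S.Ev ρ χ) :
    ∀ L : List (ℕ × ℕ), S.GoodLag L → ∃ w, w ≠ 0 ∧ w ∈ S.Ev ρ χ ⊓ S.Fix ρ (L.map Prod.fst) := by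
  intro L
  induction L with
  | nil => exact fun _ => ⟨v, hv, hv', S.mem_Fix_of_gen ρ (by simp)⟩
  | cons p L ih =>
    rintro ⟨hE, hmα, hlα, hq, hL'⟩
    obtain ⟨w0, hw0, hw0'⟩ := ih hL'
    obtain ⟨hw1, hw2⟩ := Submodule.mem_inf.1 hw0'
    obtain ⟨φ, hmem, hadd, hR, -, hsurjR, heq⟩ := hE
    haveI := Fintype.ofFinite K
    classical
    obtain ⟨b, w, hw, hweig, hpres⟩ := exists_eigen_ne_zero (fun u : ↥(S.P p.1) => ρ (S.el p.1 u))
      (by simp [S.el_zero]) (fun a a' => by simp [S.el_add p.1 _ a.2 _ a'.2])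
      (fun t : ↥(S.P p.2) => S.chR χ φ hR p.1 t) (fun u hu => by
        let c : AddChar ↥(S.P p.2) ℂ :=
          { toFun := fun t => S.ψ (χ * φ t u)
            map_zero_eq_one' := by
              have h := hadd 0 0 (u : K)
              rw [add_zero, left_eq_add] at h
              simp [h, AddChar.map_zero_eq_one]
            map_add_eq_mul' := fun t t' => by rw [AddSubgroup.coe_add, hadd, mul_add, AddChar.map_add_eq_mul] }
        refine (AddChar.sum_eq_zero_iff_ne_zero (ψ := c)).2 fun e => ?_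
        obtain ⟨y, hy, hy1⟩ := hχ
        obtain ⟨t, ht, rfl⟩ := hsurjR u u.2 (fun h => hu (Subtype.ext h)) y hy
        exact hy1 (DFunLike.congr_fun e ⟨t, ht⟩)) hw0
    have hwE : w ∈ S.Ev ρ χ := (S.mem_Ev ρ).2 fun a ha =>
      hpres _ _ (fun u => ((Sw.commute S hlα u.2 ha).map ρ)) ((S.mem_Ev ρ).1 hw1 a ha)
    have hwq : ∀ q ∈ L, ∀ a ∈ S.P q.1, ρ (S.el q.1 a) w = w := fun q hq' a ha => by
      have := hpres _ (1 : ℂ) (fun u => ((Sw.commute S (hq q hq').2 u.2 ha).map ρ))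
        (by rw [one_smul, S.Fix_el ρ hw2 (List.mem_map_of_mem hq') ha])
      rwa [one_smul] at this
    refine ⟨ρ (S.el p.2 (-(b : K))) w, fun h => hw ?_, Submodule.mem_inf.2 ⟨?_, S.mem_Fix_of_gen ρ ?_⟩⟩
    · rw [← map_inv_apply ρ (S.el p.2 (-(b : K))) w, h, map_zero]
    · rw [mem_Ev]
      intro a ha
      rw [← map_mul_apply, (Sw.commute S hmα (neg_mem b.2) ha).eq, map_mul_apply, (S.mem_Ev ρ).1 hwE a ha,
        map_smul]
    · intro r hr a ha
      rcases List.mem_cons.1 (show r ∈ p.1 :: L.map Prod.fst from hr) with rfl | hr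
      · rw [← map_mul_apply, heq _ (neg_mem b.2) a ha, map_mul_apply, map_mul_apply,
          (S.mem_Ev ρ).1 hwE _ (hmem _ (neg_mem b.2) a ha), map_smul, map_smul,
          (mem_eigSub.1 hweig ⟨a, ha⟩ : ρ (S.el p.1 a) w = _), map_smul, smul_smul]
        show (S.ψ (χ * φ (-(b : K)) a) * S.ψ (χ * φ b a)) • _ = _
        rw [← AddChar.map_add_eq_mul, ← mul_add, ← hadd, neg_add_cancel]
        have h := hadd 0 0 a
        rw [add_zero, left_eq_add] at h
        rw [h, mul_zero, AddChar.map_zero_eq_one, one_smul]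
      · obtain ⟨q, hq', rfl⟩ := List.mem_map.1 hr
        rw [← map_mul_apply, (Sw.commute S (hq q hq').1 (neg_mem b.2) ha).eq, map_mul_apply, hwq q hq' a ha]

/-- `n` preserves the line of a Lagrangian, given the fixed families `T`. -/
def InLine (L : List (ℕ × ℕ)) (T : List ℕ) (n : ℕ) : Prop :=
  ∀ x ∈ S.α :: L.map Prod.fst, ∃ T' ⊆ T, S.Sw n x T'

/-- Derivation of fixed families by commutators. -/
def GoodSteps (L : List (ℕ × ℕ)) : List (ℕ × ℕ × ℕ) → List ℕ → Prop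
  | [], _ => True
  | s :: r, T => S.InLine L T s.2.1 ∧ S.InLine L T s.2.2 ∧ S.Exact s.2.1 s.2.2 s.1 ∧ GoodSteps L r (s.1 :: T)

variable (L : List (ℕ × ℕ)) {χ : K} {v : V}

omit [Finite K] [FiniteDimensional ℂ V] in
theorem exists_scalar (hv : v ∈ S.Ev ρ χ ⊓ S.Fix ρ (L.map Prod.fst))
    (hline : ∀ w ∈ S.Ev ρ χ ⊓ S.Fix ρ (L.map Prod.fst), ∃ c : ℂ, w = c • v) {T : List ℕ} (hT : v ∈ S.Fix ρ T)
    {n : ℕ} (hn : S.InLine L T n) {t : K} (ht : t ∈ S.P n) : ∃ c : ℂ, ρ (S.el n t) v = c • v := by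
  obtain ⟨hv1, hv2⟩ := Submodule.mem_inf.1 hv
  refine hline _ (Submodule.mem_inf.2 ⟨(S.mem_Ev ρ).2 fun a ha => ?_, S.mem_Fix_of_gen ρ fun x hx a ha => ?_⟩)
  · obtain ⟨T', hT', hsw⟩ := hn S.α List.mem_cons_self
    obtain ⟨g, hg, e⟩ := hsw t ht a ha
    rw [← map_mul_apply, e, map_mul_apply, map_mul_apply, (S.mem_Fix ρ).1 hT g (S.Hs_mono hT' hg),
      (S.mem_Ev ρ).1 hv1 a ha, map_smul]
  · obtain ⟨T', hT', hsw⟩ := hn x (List.mem_cons_of_mem _ hx)
    obtain ⟨g, hg, e⟩ := hsw t ht a ha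
    rw [← map_mul_apply, e, map_mul_apply, map_mul_apply, (S.mem_Fix ρ).1 hT g (S.Hs_mono hT' hg),
      S.Fix_el ρ hv2 hx ha]

omit [Finite K] [FiniteDimensional ℂ V] in
/-- The line is fixed by the derived families. -/
theorem fix_steps (hv : v ∈ S.Ev ρ χ ⊓ S.Fix ρ (L.map Prod.fst))
    (hline : ∀ w ∈ S.Ev ρ χ ⊓ S.Fix ρ (L.map Prod.fst), ∃ c : ℂ, w = c • v) :
    ∀ (st : List (ℕ × ℕ × ℕ)) (T : List ℕ), S.GoodSteps L st T → v ∈ S.Fix ρ T →
      v ∈ S.Fix ρ (st.map Prod.fst ++ T) := by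
  intro st
  induction st with
  | nil => exact fun T _ h => h
  | cons s r ih =>
    rintro T ⟨ha, hb, hE, hr⟩ hT
    obtain ⟨φ, -, -, -, hsurj, -, heq⟩ := hE
    have hfix : ∀ y ∈ S.P s.1, ρ (S.el s.1 y) v = v := by
      intro y hy
      obtain ⟨u, hu, rfl⟩ := hsurj 1 (S.one_mem _) one_ne_zero y hy
      obtain ⟨ca, hca⟩ := S.exists_scalar ρ L hv hline hT ha (S.one_mem s.2.1)
      obtain ⟨cb, hcb⟩ := S.exists_scalar ρ L hv hline hT hb hu
      have e := congrArg (fun g => ρ g v) (heq 1 (S.one_mem _) u hu)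
      simp only [map_mul_apply] at e
      rw [hca, map_smul, hcb, smul_smul] at e
      have e2 : ρ (S.el s.2.1 1) (ρ (S.el s.2.2 u) v) = (ca * cb) • v := by
        rw [hcb, map_smul, hca, smul_smul, mul_comm]
      have e3 := congrArg (ρ (S.el s.2.2 u)⁻¹) (congrArg (ρ (S.el s.2.1 1)⁻¹) (e2.trans e))
      simp only [map_inv_apply] at e3
      exact e3.symm
    refine S.Fix_mono ρ ?_ (ih (s.1 :: T) hr (S.mem_Fix_of_gen ρ fun x hx y hy => ?_))
    · intro x hx
      simp only [List.map_cons, List.cons_append, List.mem_cons, List.mem_append] at hx ⊢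
      tauto
    · rcases List.mem_cons.1 hx with rfl | hx
      · exact hfix y hy
      · exact S.Fix_el ρ hT hx hy

end Sys

end Cfsg.Agent.H75.MinDeg
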