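import Mathlib.Analysis.Fourier.FiniteAbelian.PontryaginDuality
import Mathlib.LinearAlgebra.FiniteDimensional.Lemmas
import Mathlib.Data.Complex.Basic

/-!
# Joint eigenspaces with distinct characters

Subspaces of joint eigenvectors of a family of operators with pairwise distinct characters add their dimensions.
-/

set_option autoImplicit false

namespace Cfsg.Agent.H75.MinDeg

open Module

variable {V : Type*} [AddCommGroup V] [Module ℂ V]

/-- The joint eigenspace of a family of operators. -/
def eigSub {A : Type*} (O : A → End ℂ V) (φ : A → ℂ) : Submodule ℂ V :=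
  ⨅ a, LinearMap.ker (O a - φ a • 1)

theorem mem_eigSub {A : Type*} {O : A → End ℂ V} {φ : A → ℂ} {v : V} :
    v ∈ eigSub O φ ↔ ∀ a, O a v = φ a • v := by
  simp [eigSub, Submodule.mem_iInf, sub_eq_zero]

variable {A B : Type*} [AddCommGroup A] [Fintype A] [Fintype B]

/-- The averaging operator at a character. -/
noncomputable def avg (O : A → End ℂ V) (χ : AddChar A ℂ) : End ℂ V := ∑ a, χ (-a) • O a

theorem avg_apply_eigen {O : A → End ℂ V} (χ χ' : AddChar A ℂ) {v : V} (hv : v ∈ eigSub O χ') :
    avg O χ v = (∑ a, (χ' * χ⁻¹) a) • v := by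
  rw [mem_eigSub] at hv
  simp only [avg, LinearMap.sum_apply, LinearMap.smul_apply, hv, smul_smul, Finset.sum_smul]
  exact Finset.sum_congr rfl fun a _ => by rw [AddChar.mul_apply, AddChar.inv_apply, mul_comm]

theorem avg_apply_other {O : A → End ℂ V} {χ χ' : AddChar A ℂ} (h : χ' ≠ χ) {v : V} (hv : v ∈ eigSub O χ') :
    avg O χ v = 0 := by
  rw [avg_apply_eigen χ χ' hv, AddChar.sum_eq_zero_iff_ne_zero.2, zero_smul]
  intro e
  exact h (mul_inv_eq_one.1 e)

theorem avg_apply_self {O : A → End ℂ V} {χ : AddChar A ℂ} {v : V} (hv : v ∈ eigSub O χ) :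
    avg O χ v = (Fintype.card A : ℂ) • v := by
  rw [avg_apply_eigen χ χ hv, mul_inv_cancel]
  simp

variable [FiniteDimensional ℂ V]

omit [AddCommGroup A] [Fintype A] [Fintype B] in
/-- Two subspaces with trivial intersection add their dimensions. -/
theorem finrank_add_le {p q : Submodule ℂ V} (h : p ⊓ q = ⊥) :
    finrank ℂ p + finrank ℂ q = finrank ℂ ↥(p ⊔ q) := by
  have := Submodule.finrank_sup_add_finrank_inf_eq p q
  rw [h, finrank_bot, add_zero] at this
  exact this.symm

/-- Eigenspaces with distinct characters add their dimensions. -/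
theorem le_finrank_iSup_eigen (O : A → End ℂ V) (φ : B → AddChar A ℂ) (hinj : Function.Injective φ)
    (U : B → Submodule ℂ V) (hU : ∀ b, U b ≤ eigSub O (φ b)) (d : B → ℕ) (hd : ∀ b, d b ≤ finrank ℂ (U b)) :
    ∑ b, d b ≤ finrank ℂ ↥(⨆ b, U b) := by
  classical
  suffices h : ∀ s : Finset B, ∑ b ∈ s, d b ≤ finrank ℂ ↥(s.sup U) by
    rw [← Finset.sup_univ_eq_iSup]
    exact h Finset.univ
  intro s
  induction s using Finset.induction with
  | empty => simp
  | @insert b s hb ih =>
    rw [Finset.sum_insert hb, Finset.sup_insert, ← finrank_add_le]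
    · have := hd b
      omega
    · rw [Submodule.eq_bot_iff]
      intro x hx
      obtain ⟨h1, h2⟩ := Submodule.mem_inf.1 hx
      have hker : s.sup U ≤ LinearMap.ker (avg O (φ b)) := Finset.sup_le fun b' hb' y hy =>
        avg_apply_other (fun e => hb (by rw [← hinj e]; exact hb'))
          (hU b' hy)
      have e := avg_apply_self (hU b h1)
      rw [LinearMap.mem_ker.1 (hker h2)] at e
      exact (smul_eq_zero.1 e.symm).resolve_left (Nat.cast_ne_zero.2 Fintype.card_ne_zero)

omit [FiniteDimensional ℂ V] in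
/-- A non-zero vector has a non-zero component for some character. -/
theorem exists_eigen_ne_zero [Nonempty B] (O : A → End ℂ V) (h0 : O 0 = 1) (hadd : ∀ a b, O (a + b) = O a * O b)
    (φ : B → AddChar A ℂ) (hsum : ∀ a, a ≠ 0 → ∑ b, φ b a = 0) {v : V} (hv : v ≠ 0) :
    ∃ b : B, ∃ w, w ≠ 0 ∧ w ∈ eigSub O (φ b) ∧
      ∀ (T : End ℂ V) (c : ℂ), (∀ a, Commute T (O a)) → T v = c • v → T w = c • w := by
  classical
  have key : ∑ b, avg O (φ b) v = (Fintype.card B : ℂ) • v := by
    simp only [avg, LinearMap.sum_apply, LinearMap.smul_apply]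
    rw [Finset.sum_comm, Finset.sum_eq_single (0 : A)]
    · simp [h0, AddChar.map_zero_eq_one, Nat.cast_smul_eq_nsmul]
    · intro a _ ha
      rw [← Finset.sum_smul, hsum (-a) (neg_ne_zero.2 ha), zero_smul]
    · exact fun h => absurd (Finset.mem_univ _) h
  obtain ⟨b, -, hb⟩ := Finset.exists_ne_zero_of_sum_ne_zero (f := fun b => avg O (φ b) v) (s := Finset.univ) (by
    rw [key]
    exact smul_ne_zero (Nat.cast_ne_zero.2 Fintype.card_ne_zero) hv)
  refine ⟨b, _, hb, ?_, ?_⟩
  · rw [mem_eigSub]
    intro a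
    simp only [avg, LinearMap.sum_apply, LinearMap.smul_apply, map_sum, map_smul, Finset.smul_sum, smul_smul]
    refine Fintype.sum_equiv (Equiv.addLeft a) _ _ fun a' => ?_
    rw [Equiv.coe_addLeft, hadd, Module.End.mul_apply, neg_add, AddChar.map_add_eq_mul, ← mul_assoc,
      ← AddChar.map_add_eq_mul, add_neg_cancel, AddChar.map_zero_eq_one, one_mul]
  · intro T c hT hTv
    have hc : Commute T (avg O (φ b)) := Commute.sum_right _ _ _ fun a _ => (hT a).smul_right _
    rw [← Module.End.mul_apply, hc.eq, Module.End.mul_apply, hTv, map_smul]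

end Cfsg.Agent.H75.MinDeg
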