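import Cfsg.Agent.H75.MinDeg.Line

/-!
# Adding up the terms
-/

set_option autoImplicit false

namespace Cfsg.Agent.H75.MinDeg

open Module

variable {V : Type*} [AddCommGroup V] [Module ℂ V] [FiniteDimensional ℂ V]

/-- Subspaces killed by their operator and multiplied by the earlier ones add their dimensions. -/
theorem sum_finrank_le : ∀ (n : ℕ) (U : ℕ → Submodule ℂ V) (O : ℕ → End ℂ V) (c : ℂ), c ≠ 0 →
    (∀ i < n, U i ≤ LinearMap.ker (O i)) → (∀ j i, j < i → i < n → ∀ x ∈ U i, O j x = c • x) →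
    ∑ i ∈ Finset.range n, finrank ℂ (U i) ≤ finrank ℂ ↥((Finset.range n).sup U) := by
  intro n
  induction n with
  | zero => simp
  | succ n ih =>
    intro U O c hc hker hmul
    rw [Finset.sum_range_succ']
    have h := ih (fun i => U (i + 1)) (fun i => O (i + 1)) c hc (fun i hi => hker (i + 1) (by omega))
      fun j i hji hi => hmul (j + 1) (i + 1) (by omega) (by omega)
    set T := (Finset.range n).sup fun i => U (i + 1)
    have hdisj : U 0 ⊓ T = ⊥ := by
      rw [Submodule.eq_bot_iff]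
      intro x hx
      obtain ⟨h1, h2⟩ := Submodule.mem_inf.1 hx
      have hle : T ≤ LinearMap.ker (O 0 - c • 1) := Finset.sup_le fun i hi y hy => by
        rw [LinearMap.mem_ker, LinearMap.sub_apply, LinearMap.smul_apply, Module.End.one_apply,
          hmul 0 (i + 1) (by omega) (by have := Finset.mem_range.1 hi; omega) y hy, sub_self]
      have e := LinearMap.mem_ker.1 (hle h2)
      rw [LinearMap.sub_apply, LinearMap.mem_ker.1 (hker 0 (by omega) h1), LinearMap.smul_apply,
        Module.End.one_apply, zero_sub, neg_eq_zero] at e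
      exact (smul_eq_zero.1 e).resolve_left hc
    have hsup : U 0 ⊔ T ≤ (Finset.range (n + 1)).sup U :=
      sup_le (Finset.le_sup (f := U) (Finset.mem_range.2 (by omega))) (Finset.sup_le fun i hi =>
        Finset.le_sup (f := U) (Finset.mem_range.2 (by have := Finset.mem_range.1 hi; omega)))
    refine le_trans ?_ (Submodule.finrank_mono hsup)
    rw [← finrank_add_le hdisj]
    omega

namespace Sys

variable {G : Type*} [Group G] {K : Type*} [Field K] [Finite K] (S : Sys G K) (ρ : G →* End ℂ V)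

/-- A certificate of a term: a Lagrangian, derivation steps, translations, fixed families and a conjugator. -/
structure Cert (G : Type*) where
  /-- the Lagrangian with partners -/
  L : List (ℕ × ℕ)
  /-- the derivation -/
  steps : List (ℕ × ℕ × ℕ)
  /-- the translations -/
  M : List (ℕ × ℕ)
  /-- the families kept fixed -/
  T : List ℕ
  /-- the conjugator -/
  n : G

/-- The conditions on one certificate. -/
def Valid (C : Cert G) : Prop :=
  S.GoodLag C.L ∧ S.GoodSteps C.L C.steps (C.L.map Prod.fst) ∧ S.GoodShift C.M C.T ∧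
    C.M.map Prod.fst ++ C.T ⊆ C.steps.map Prod.fst ++ C.L.map Prod.fst

/-- The space fixed by a Lagrangian with a given character. -/
def line (L : List (ℕ × ℕ)) (χ : K) : Submodule ℂ V := S.Ev ρ χ ⊓ S.Fix ρ (L.map Prod.fst)

variable {ι : Type*} [Fintype ι] (x : ι → K) (hx : ∀ i, S.Nt (x i))
  (hsep : Function.Injective fun i => fun t : ↥(S.P S.α) => S.ψ (x i * (t : K)))

/-- The character of the centre. -/
def chA (χ : K) : AddChar ↥(S.P S.α) ℂ where
  toFun t := S.ψ (χ * t)
  map_zero_eq_one' := by simp [AddChar.map_zero_eq_one]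
  map_add_eq_mul' t u := by rw [AddSubgroup.coe_add, mul_add, AddChar.map_add_eq_mul]

omit [Finite K] [FiniteDimensional ℂ V] [Fintype ι] in
include hsep in
theorem chA_injective : Function.Injective fun i => S.chA (x i) := fun _i _j e =>
  hsep (funext fun t => DFunLike.congr_fun e t)

include hx hsep

/-- The dimension from one Lagrangian, with multiplicities. -/
theorem sum_line_le {L : List (ℕ × ℕ)} (hL : S.GoodShift L []) :
    S.size L * ∑ i, finrank ℂ (S.line ρ L (x i)) ≤ finrank ℂ V := by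
  haveI := Fintype.ofFinite K
  classical
  have h : ∀ i, ∃ U : Submodule ℂ V, U ≤ S.Ev ρ (x i) ⊓ S.Fix ρ [] ∧
      S.size L * finrank ℂ (S.line ρ L (x i)) ≤ finrank ℂ U := fun i =>
    S.exists_shift ρ (hx i) L [] hL _ (by simp [line])
  choose U hU hdim using h
  rw [Finset.mul_sum]
  exact le_trans (le_finrank_iSup_eigen (fun t : ↥(S.P S.α) => ρ (S.el S.α t)) (fun i => S.chA (x i))
    (S.chA_injective x hsep) U (fun i v hv => (Submodule.mem_inf.1 (hU i hv)).1) _ hdim) (Submodule.finrank_le _)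

variable (hev : ∀ i, ∃ v, v ≠ 0 ∧ v ∈ S.Ev ρ (x i))

variable [Fintype ↥(S.P S.α)]

include hev

/-- The space of one term. -/
theorem exists_term (C : Cert G) (hC : S.Valid C) (h1 : ∀ i, finrank ℂ (S.line ρ C.L (x i)) ≤ 1) :
    ∃ U : Submodule ℂ V, (∀ u ∈ U, ∀ g ∈ S.Hs C.T, ρ g u = u) ∧
      (U ≤ LinearMap.ker (∑ t : ↥(S.P S.α), ρ (S.el S.α t))) ∧
      Fintype.card ι * S.size C.M ≤ finrank ℂ U := by
  classical
  obtain ⟨hL, hS, hM, hsub⟩ := hC
  have h : ∀ i, ∃ U : Submodule ℂ V, U ≤ S.Ev ρ (x i) ⊓ S.Fix ρ C.T ∧ S.size C.M ≤ finrank ℂ U := by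
    intro i
    obtain ⟨v0, hv0, hv0'⟩ := hev i
    obtain ⟨v, hv, hv'⟩ := S.exists_fixed ρ (hx i) hv0 hv0' C.L hL
    have hline : ∀ w ∈ S.Ev ρ (x i) ⊓ S.Fix ρ (C.L.map Prod.fst), ∃ c : ℂ, w = c • v := by
      intro w hw
      have hle : ℂ ∙ v ≤ S.line ρ C.L (x i) := (Submodule.span_singleton_le_iff_mem _ _).2 hv'
      have heq := Submodule.eq_of_le_of_finrank_le hle (le_trans (h1 i) (by rw [finrank_span_singleton hv]))
      obtain ⟨c, hc⟩ := Submodule.mem_span_singleton.1 (heq.symm ▸ hw : w ∈ ℂ ∙ v)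
      exact ⟨c, hc.symm⟩
    have hfix := S.fix_steps ρ C.L hv' hline C.steps _ hS (Submodule.mem_inf.1 hv').2
    obtain ⟨U, hU, hdim⟩ := S.exists_shift ρ (hx i) C.M C.T hM (ℂ ∙ v)
      ((Submodule.span_singleton_le_iff_mem _ _).2
        (Submodule.mem_inf.2 ⟨(Submodule.mem_inf.1 hv').1, S.Fix_mono ρ hsub hfix⟩))
    rw [finrank_span_singleton hv, mul_one] at hdim
    exact ⟨U, hU, hdim⟩
  choose U hU hdim using h
  refine ⟨⨆ i, U i, fun u hu => (S.mem_Fix ρ).1 ((iSup_le fun i => (hU i).trans inf_le_right :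
    ⨆ i, U i ≤ S.Fix ρ C.T) hu), iSup_le fun i u hu => ?_, ?_⟩
  · have h0 := avg_apply_other (O := fun t : ↥(S.P S.α) => ρ (S.el S.α t)) (χ := 1) (χ' := S.chA (x i))
      (fun e => by
        obtain ⟨y, hy, hy1⟩ := hx i
        exact hy1 (DFunLike.congr_fun e ⟨y, hy⟩)) (Submodule.mem_inf.1 (hU i hu)).1
    rw [LinearMap.mem_ker]
    simpa [avg] using h0
  · refine le_trans ?_ (le_finrank_iSup_eigen (fun t : ↥(S.P S.α) => ρ (S.el S.α t)) (fun i => S.chA (x i))
      (S.chA_injective x hsep) U (fun i v hv => (Submodule.mem_inf.1 (hU i hv)).1) _ hdim)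
    simp

/-- The terms add up. -/
theorem sum_le_finrank (N : ℕ) (C : ℕ → Cert G) (hC : ∀ i < N, S.Valid (C i))
    (h1 : ∀ i < N, ∀ a, finrank ℂ (S.line ρ (C i).L (x a)) ≤ 1)
    (hconj : ∀ j i, j < i → i < N → ∀ t ∈ S.P S.α,
      (C i).n * ((C j).n⁻¹ * S.el S.α t * (C j).n) * (C i).n⁻¹ ∈ S.Hs (C i).T) :
    ∑ i ∈ Finset.range N, Fintype.card ι * S.size (C i).M ≤ finrank ℂ V := by
  classical
  have h : ∀ i, ∃ U : Submodule ℂ V, i < N → (∀ u ∈ U, ∀ g ∈ S.Hs (C i).T, ρ g u = u) ∧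
      U ≤ LinearMap.ker (∑ t : ↥(S.P S.α), ρ (S.el S.α t)) ∧ Fintype.card ι * S.size (C i).M ≤ finrank ℂ U := by
    intro i
    by_cases hi : i < N
    · obtain ⟨U, hU⟩ := S.exists_term ρ x hx hsep hev (C i) (hC i hi) (h1 i hi)
      exact ⟨U, fun _ => hU⟩
    · exact ⟨⊥, fun h' => absurd h' hi⟩
  choose U hU using h
  let T : ℕ → End ℂ V := fun i => ρ (C i).n⁻¹
  let O : ℕ → End ℂ V := fun i => ∑ t : ↥(S.P S.α), ρ ((C i).n⁻¹ * S.el S.α t * (C i).n)
  have hk := sum_finrank_le N (fun i => (U i).map (T i)) O (Fintype.card ↥(S.P S.α) : ℂ)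
    (Nat.cast_ne_zero.2 Fintype.card_ne_zero) (fun i hi => ?_) (fun j i hji hi => ?_)
  · refine le_trans (le_trans (Finset.sum_le_sum fun i hi => ?_) hk) (Submodule.finrank_le _)
    refine le_trans (hU i (Finset.mem_range.1 hi)).2.2
      (le_of_eq (LinearEquiv.finrank_eq (Submodule.equivMapOfInjective _ ?_ (U i))))
    exact Function.LeftInverse.injective (g := ρ (C i).n) (map_apply_inv ρ _)
  · rintro _ ⟨u, hu, rfl⟩
    have h0 := LinearMap.mem_ker.1 ((hU i hi).2.1 hu)
    rw [LinearMap.mem_ker]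
    simp only [O, T, LinearMap.sum_apply, map_mul_apply, map_apply_inv]
    rw [← map_sum, ← LinearMap.sum_apply, h0, map_zero]
  · rintro _ ⟨u, hu, rfl⟩
    simp only [O, T, LinearMap.sum_apply]
    rw [Finset.sum_congr rfl fun (t : ↥(S.P S.α)) _ => show
      ρ ((C j).n⁻¹ * S.el S.α t * (C j).n) (ρ (C i).n⁻¹ u) = ρ (C i).n⁻¹ u by
        conv_rhs => rw [← (hU i hi).1 u hu _ (hconj j i hji hi t t.2)]
        rw [← map_mul_apply, ← map_mul_apply]
        congr 2
        group]
    simp [Nat.cast_smul_eq_nsmul]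

end Sys

end Cfsg.Agent.H75.MinDeg
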